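import Groth.Prelude.Def_ModelsG
import Groth.Agent.Ega1.GenPts
import Groth.Agent.Sga4B.SmoothNormal
import Groth.Agent.Etcore.DimBaseChange
import Groth.Agent.Picfga.H0
import Groth.Agent.S0223

/-!
# Base change of smooth proper curves with only constant functions to field extensions
-/

set_option autoImplicit false
universe u
open CategoryTheory CategoryTheory.Limits AlgebraicGeometry

namespace Groth.Agent.Models.H58.CurveBC

theorem connectedSpace_of_isDomain (X : Scheme.{u}) [Nonempty X] (h : IsDomain Γ(X, ⊤)) : ConnectedSpace X := by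
  rw [connectedSpace_iff_clopen]
  refine ⟨inferInstance, fun Z hZ => ?_⟩
  by_contra! H
  let U : X.Opens := ⟨Z, hZ.2⟩
  let V : X.Opens := ⟨Zᶜ, hZ.1.isOpen_compl⟩
  have hU : Nonempty U := by
    obtain ⟨x, hx⟩ := H.1
    exact ⟨⟨x, hx⟩⟩
  have hV : Nonempty V := by
    obtain ⟨x, hx⟩ := Set.nonempty_compl.mpr H.2
    exact ⟨⟨x, hx⟩⟩
  have hUV : U ⊓ V = ⊥ := by
    ext x
    simp [U, V]
  have hUV' : U ⊔ V = ⊤ := by
    ext x
    simp [U, V]
  let e : Γ(X, U ⊔ V) ≅ CommRingCat.of _ :=
    (X.sheaf.isProductOfDisjoint U V hUV).conePointUniqueUpToIso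
      (CommRingCat.prodFanIsLimit _ _)
  have hd : IsDomain Γ(X, U ⊔ V) := by rw [hUV']; exact h
  have : IsDomain (Γ(X, U) × Γ(X, V)) :=
      e.symm.commRingCatIsoToRingEquiv.toMulEquiv.isDomain _
  exact false_of_nontrivial_of_product_domain Γ(X, U) Γ(X, V)

/-- A nonempty smooth scheme over a field whose ring of global functions is a domain is integral. -/
theorem isIntegral_of_smooth {k : Type u} [Field k] {X : Scheme.{u}} (f : X ⟶ Spec (CommRingCat.of k))
    [Smooth f] [Nonempty X] (hd : IsDomain Γ(X, ⊤)) : IsIntegral X := by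
  have h1 : IsLocallyNoetherian X := LocallyOfFiniteType.isLocallyNoetherian f
  rw [Groth.Agent.Ega1.GenPts.isIntegral_iff]
  exact ⟨connectedSpace_of_isDomain X hd, fun x =>
    (Groth.Agent.Sga4B.SmoothNormal.isNormalScheme_of_smooth f x).1⟩

section

variable {K L : Type u} [Field K] [Field L] [Algebra K L] {C C' : Scheme.{u}}
  {f : C ⟶ Spec (CommRingCat.of K)} {f' : C' ⟶ Spec (CommRingCat.of L)} {p : C' ⟶ C}
  (H : IsPullback p f' f (Spec.map (CommRingCat.ofHom (algebraMap K L))))

include H

/-- Global functions of the base change. -/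
theorem isIso_appTop [CompactSpace C] [QuasiSeparatedSpace C] (hH0 : IsIso f.appTop) :
    IsIso f'.appTop := by
  have h1 : IsIso (pullback.snd f (Spec.map (CommRingCat.ofHom (algebraMap K L)))).appTop :=
    Groth.Agent.Picfga.H0.isIso_app f hH0
      (Over.mk (Spec.map (CommRingCat.ofHom (algebraMap K L)))) ⊤
  rw [← H.isoPullback_hom_snd, Scheme.Hom.comp_appTop]
  have h2 : IsIso H.isoPullback.hom.appTop :=
    inferInstanceAs (IsIso (H.isoPullback.hom.app ⊤))
  exact @IsIso.comp_isIso _ _ _ _ _ _ _ h1 h2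

theorem surjective_p : Surjective p := by
  have : Surjective (Spec.map (CommRingCat.ofHom (algebraMap K L))) := inferInstance
  exact MorphismProperty.of_isPullback H.flip this

/-- **Base change of smooth proper curves.** -/
theorem isSmoothProperCurve (hC : Curve.IsSmoothProperCurve K C f) (hH0 : IsIso f.appTop) :
    Curve.IsSmoothProperCurve L C' f' := by
  obtain ⟨h1, h2, h3, h4⟩ := hC
  have hc : CompactSpace C := (quasiCompact_iff_compactSpace f).mp inferInstance
  have hq : QuasiSeparatedSpace C := (quasiSeparated_iff_quasiSeparatedSpace f).mp inferInstance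
  have hp' : IsProper f' := MorphismProperty.of_isPullback H inferInstance
  have hs' : Smooth f' := MorphismProperty.of_isPullback H inferInstance
  have hH0' := isIso_appTop H hH0
  have hne : Nonempty C' := by
    obtain ⟨y, -⟩ := (surjective_p H).surj (Classical.arbitrary C)
    exact ⟨y⟩
  refine ⟨hp', hs', isIntegral_of_smooth f' ?_, ?_⟩
  · have e : Γ(Spec (CommRingCat.of L), ⊤) ≅ Γ(C', ⊤) := asIso f'.appTop
    have hd : IsDomain Γ(Spec (CommRingCat.of L), ⊤) :=
      (Scheme.ΓSpecIso (CommRingCat.of L)).commRingCatIsoToRingEquiv.toMulEquiv.isDomain _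
    exact e.symm.commRingCatIsoToRingEquiv.toMulEquiv.isDomain _
  · rw [← h4]
    exact Groth.Agent.Etcore.DimBaseChange.topologicalKrullDim_eq (Field.toIsField K)
      (Field.toIsField L) f f' p _ H

theorem curveGenus_eq [IsProper f] : Models.curveGenus L C' f' = Models.curveGenus K C f := by
  unfold Models.curveGenus Models.hRank
  letI : C.Over (Spec (CommRingCat.of K)) := ⟨f⟩
  letI : C'.Over (Spec (CommRingCat.of L)) := ⟨f'⟩
  have : IsProper (C ↘ Spec (CommRingCat.of K)) := ‹IsProper f›
  exact S0223.finrank_eq K C L C' p H 1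

end

end Groth.Agent.Models.H58.CurveBC
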