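import Groth.Prelude.Def_ModelsG
import Mathlib.RingTheory.DedekindDomain.IntegralClosure
import Mathlib.RingTheory.DedekindDomain.Dvr
import Mathlib.RingTheory.Localization.Integral

/-!
# Extensions of discrete valuation rings inside a finite separable field extension
-/

set_option autoImplicit false
universe u
open CategoryTheory CategoryTheory.Limits AlgebraicGeometry

namespace Groth.Agent.Models.H58.DVRExt

/-- Over a discrete valuation ring `R` and a finite separable extension `L` of its fraction field there is a
discrete valuation ring `R'` with fraction field `L` dominating `R`. -/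
theorem exists_dvr (R : Type u) [CommRing R] [IsDomain R] [IsDiscreteValuationRing R]
    (L : Type u) [Field L] [Algebra (FractionRing R) L] [FiniteDimensional (FractionRing R) L]
    [Algebra.IsSeparable (FractionRing R) L] :
    ∃ (R' : Type u) (_ : CommRing R') (_ : IsDomain R') (_ : IsDiscreteValuationRing R')
      (φ : R →+* R') (e : L ≃+* FractionRing R'),
      Models.IsDVRExtension R φ ∧
      ((e : L →+* FractionRing R').comp (algebraMap (FractionRing R) L)).comp
        (algebraMap R (FractionRing R)) = (algebraMap R' (FractionRing R')).comp φ := by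
  let _ : Algebra R L := ((algebraMap (FractionRing R) L).comp (algebraMap R (FractionRing R))).toAlgebra
  have _ : IsScalarTower R (FractionRing R) L := IsScalarTower.of_algebraMap_eq (fun _ => rfl)
  let B := integralClosure R L
  have hB : IsDedekindDomain B := integralClosure.isDedekindDomain R (FractionRing R) L
  have hfrac : IsFractionRing B L := integralClosure.isFractionRing_of_finite_extension (FractionRing R) L
  have hinj : Function.Injective (algebraMap R B) := by
    have h1 : Function.Injective (algebraMap R L) :=
      (algebraMap (FractionRing R) L).injective.comp (IsFractionRing.injective R (FractionRing R))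
    intro a b hab
    apply h1
    exact congrArg (algebraMap B L) hab
  have hint : Algebra.IsIntegral R B := inferInstance
  obtain ⟨M, hM, hMc⟩ : ∃ M : Ideal B, M.IsMaximal ∧ M.comap (algebraMap R B) = IsLocalRing.maximalIdeal R := by
    obtain ⟨Q, hQ, hQc⟩ := Ideal.exists_ideal_over_maximal_of_isIntegral (S := B)
      (IsLocalRing.maximalIdeal R) (by
        rw [(RingHom.injective_iff_ker_eq_bot _).mp hinj]; exact bot_le)
    exact ⟨Q, hQ, hQc⟩
  have hM0 : M ≠ ⊥ := by
    rintro rfl
    have h1 : IsLocalRing.maximalIdeal R = ⊥ := by
      rw [← hMc, ← RingHom.ker_eq_comap_bot]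
      exact (RingHom.injective_iff_ker_eq_bot _).mp hinj
    exact IsDiscreteValuationRing.not_a_field R h1
  let R' := Localization.AtPrime M
  have hR'd : IsDomain R' := IsLocalization.isDomain_localization M.primeCompl_le_nonZeroDivisors
  have hR' : IsDiscreteValuationRing R' :=
    IsLocalization.AtPrime.isDiscreteValuationRing_of_dedekind_domain B hM0 R'
  let _ : Algebra R' L := (IsLocalization.lift (M := M.primeCompl) (S := R') (g := algebraMap B L) (by
    intro y
    rw [isUnit_iff_ne_zero]
    intro h
    have h2 : (y : B) = 0 := IsFractionRing.injective B L (by rw [h, map_zero])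
    exact y.2 (h2 ▸ M.zero_mem))).toAlgebra
  have _ : IsScalarTower B R' L := IsScalarTower.of_algebraMap_eq (fun x =>
    (IsLocalization.lift_eq _ x).symm)
  have hfrac' : IsFractionRing R' L :=
    IsFractionRing.isFractionRing_of_isDomain_of_isLocalization M.primeCompl R' L
  let e : FractionRing R' ≃ₐ[R'] L := FractionRing.algEquiv R' L
  refine ⟨R', inferInstance, hR'd, hR', (algebraMap B R').comp (algebraMap R B), e.symm.toRingEquiv,
    ⟨?_, ?_⟩, ?_⟩
  · rw [RingHom.coe_comp]
    exact (IsLocalization.injective R' M.primeCompl_le_nonZeroDivisors).comp hinj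
  · refine ⟨fun a ha => ?_⟩
    by_contra hna
    have h1 : a ∈ IsLocalRing.maximalIdeal R := (IsLocalRing.mem_maximalIdeal a).mpr hna
    rw [← hMc] at h1
    have h2 : algebraMap B R' (algebraMap R B a) ∈ IsLocalRing.maximalIdeal R' :=
      (IsLocalization.AtPrime.to_map_mem_maximal_iff R' M _).mpr h1
    exact (IsLocalRing.mem_maximalIdeal _).mp h2 ha
  · ext r
    change e.symm (algebraMap B L (algebraMap R B r)) = algebraMap R' (FractionRing R') (algebraMap B R' (algebraMap R B r))
    rw [IsScalarTower.algebraMap_apply B R' L, AlgEquiv.commutes]

end Groth.Agent.Models.H58.DVRExt
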