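import Groth.Agent.Models.H58.ExtMain
import Groth.Agent.Models.H74.PicTorsGalois

/-!
# Extensions over which a curve has a rational point and full `n`-torsion, unconditionally
-/

set_option autoImplicit false
universe u
open CategoryTheory CategoryTheory.Limits AlgebraicGeometry

namespace Groth.Agent.Models.H58.ExtFinal

open Groth.Agent.Grpsch.PicGrp Groth.Agent.CurvesB
open Groth.Agent.Picfga.FieldSections GalDesc ExtMain

theorem extA : ExtA.{u} := fun _ _ _ f hC _ n hn =>
  Groth.Agent.Models.H74.PicTorsGalois.exists_galois f hC n hn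

variable {K : Type u} [Field K] {C : Scheme.{u}} (f : C ⟶ Spec (CommRingCat.of K))

/-- Full `n`-torsion after a finite separable extension of bounded degree, given a rational point. -/
theorem exists_ext_of_point (hC : Curve.IsSmoothProperCurve K C f) (hH0 : IsIso f.appTop)
    (x : Spec (CommRingCat.of K) ⟶ C) (hx : x ≫ f = 𝟙 _) (n : ℕ) (hn : (n : K) ≠ 0) :
    ∃ (E : Type u) (_ : Field E) (_ : Algebra K E), FiniteDimensional K E ∧ Algebra.IsSeparable K E ∧
      Module.finrank K E ≤ (n ^ (2 * Models.curveGenus K C f)).factorial ∧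
      Nat.card (Tors (pullback f (bc K E)) n) = n ^ (2 * Models.curveGenus K C f) :=
  ExtMain.exists_ext_of_point f extA hC hH0 x hx n hn

/-- A rational point and full `n`-torsion after a finite separable extension of bounded degree, genus at least
two. -/
theorem exists_ext (hC : Curve.IsSmoothProperCurve K C f) (hH0 : IsIso f.appTop)
    (hg : 2 ≤ Models.curveGenus K C f) (n : ℕ) (hn : (n : K) ≠ 0) :
    ∃ (E : Type u) (_ : Field E) (_ : Algebra K E), FiniteDimensional K E ∧ Algebra.IsSeparable K E ∧
      Module.finrank K E ≤ (2 * Models.curveGenus K C f - 2) *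
        (n ^ (2 * Models.curveGenus K C f)).factorial ∧
      (∃ t : Spec (CommRingCat.of E) ⟶ C, t ≫ f = bc K E) ∧
      Nat.card (Tors (pullback f (bc K E)) n) = n ^ (2 * Models.curveGenus K C f) :=
  ExtMain.exists_ext f extA hC hH0 hg n hn

end Groth.Agent.Models.H58.ExtFinal
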