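import Groth.Agent.S1157
import Groth.Agent.S0232
import Groth.Agent.Picfga.PicBridge
import Groth.Agent.CurvesB.HZero
import Mathlib.FieldTheory.Galois.Basic

/-!
# Galois descent of the torsion of the Picard group, with a bound for the degree

`exists_intermediateField`: let `X` be qcqs over a field `K` with `H^0(X, O_X) = K` and a rational point,
`F/K` finite Galois and `n` such that `Pic(X_F)[n]` is finite with `N` elements. Then there is an
intermediate field `E` with `[E : K] ≤ N!` such that `Pic(X_E)[n]` has `N` elements as well.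
-/

set_option autoImplicit false
universe u
open CategoryTheory CategoryTheory.Limits AlgebraicGeometry

namespace Groth.Agent.Models.H58.GalDesc

open Groth.Agent.Grpsch.PicGrp Groth.Agent.Picfga.PicBridge Groth.Agent.CurvesB
open Groth.Agent.Picfga.FieldSections Groth.Agent.Picfga.GaloisAct

/-- `H^0` is finite if all global functions are constant. -/
theorem finite_H0 (k : Type u) [Field k] (X : Scheme.{u}) [X.Over (Spec (CommRingCat.of k))]
    (h : IsIso (X ↘ Spec (CommRingCat.of k)).appTop) :
    Module.Finite k (Coh.HH X (Coh.structureModule X) 0) := by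
  let _ := HZero.moduleΓ k (Coh.structureModule X)
  have h1 : Function.Surjective (HZero.gl k X) := by
    intro s
    obtain ⟨t, ht⟩ := (ConcreteCategory.bijective_of_isIso (X ↘ Spec (CommRingCat.of k)).appTop).2 s
    obtain ⟨a, ha⟩ := (ConcreteCategory.bijective_of_isIso (Scheme.ΓSpecIso (CommRingCat.of k)).inv).2 t
    refine ⟨a, ?_⟩
    rw [← ht, ← ha]
    rfl
  have h2 : Module.Finite k Γ(Coh.structureModule X, ⊤) := by
    have hs : Function.Surjective (LinearMap.toSpanSingleton k Γ(Coh.structureModule X, ⊤)
        (show Γ(Coh.structureModule X, ⊤) from (1 : Γ(X, ⊤)))) := by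
      intro s
      obtain ⟨a, ha⟩ := h1 s
      refine ⟨a, ?_⟩
      rw [← ha]
      change HZero.gl k X a * 1 = _
      rw [mul_one]
    exact Module.Finite.of_surjective _ hs
  exact Module.Finite.equiv (HZero.equivLin k (Coh.structureModule X)).symm

/-- Injectivity of the Picard group under base field extension. -/
theorem pull_injective {k k' : Type u} [Field k] [Field k'] [Algebra k k'] {X X' : Scheme.{u}}
    {f : X ⟶ Spec (CommRingCat.of k)} {g : X' ⟶ X} {q : X' ⟶ Spec (CommRingCat.of k')}
    (H : IsPullback g q f (Spec.map (CommRingCat.ofHom (algebraMap k k'))))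
    [CompactSpace X] [QuasiSeparatedSpace X] (hH0 : IsIso f.appTop) :
    Function.Injective (pull g) := by
  rw [injective_iff_map_eq_one]
  intro a ha
  obtain ⟨L, hL, rfl⟩ := exists_mk a
  let _ : X.Over (Spec (CommRingCat.of k)) := ⟨f⟩
  have h1 := S0232.result k X (finite_H0 k X hH0) k' X' g q H L hL (by
    have h2 : ofPic (pull g (mk L hL)) = ofPic 1 := congrArg _ ha
    rw [ofPic_pull] at h2
    exact h2)
  exact ofPic_injective h1

section

variable {K F : Type u} [Field K] [Field F] [Algebra K F] {X : Scheme.{u}}
  (f : X ⟶ Spec (CommRingCat.of K)) (E : IntermediateField K F)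

/-- the structure morphism of `X_E`. -/
noncomputable abbrev fE : pullback f (bc K E) ⟶ Spec (CommRingCat.of E) := pullback.snd f (bc K E)

theorem bc_comp : bc E F ≫ bc K E = bc K F := by
  rw [bc, bc, bc, ← Spec.map_comp, ← CommRingCat.ofHom_comp]
  rfl

/-- The projection `X_F ⟶ X_E`. -/
noncomputable def pr : pullback f (bc K F) ⟶ pullback f (bc K E) :=
  pullback.lift (pullback.fst f (bc K F)) (pullback.snd f (bc K F) ≫ bc E F) (by
    rw [Category.assoc, bc_comp, pullback.condition])

theorem pr_fst : pr f E ≫ pullback.fst f (bc K E) = pullback.fst f (bc K F) :=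
  pullback.lift_fst _ _ _

theorem pr_snd : pr f E ≫ pullback.snd f (bc K E) = pullback.snd f (bc K F) ≫ bc E F :=
  pullback.lift_snd _ _ _

theorem isPullback_pr : IsPullback (pr f E) (pullback.snd f (bc K F)) (fE f E) (bc E F) := by
  refine IsPullback.of_right (h₁₂ := pullback.fst f (bc K E)) (v₁₃ := f) (h₂₂ := bc K E) ?_
    (pr_snd f E) (IsPullback.of_hasPullback f (bc K E))
  rw [pr_fst, bc_comp]
  exact IsPullback.of_hasPullback f (bc K F)

theorem tw_pr (σ : F ≃ₐ[E] F) : tw f (σ.restrictScalars K) ≫ pr f E = pr f E := by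
  apply pullback.hom_ext
  · rw [Category.assoc, pr_fst, tw_fst]
  · rw [Category.assoc, pr_snd, ← Category.assoc, tw_snd, Category.assoc]
    congr 1
    exact spAut_bc σ

theorem tw_isoPullback (σ : F ≃ₐ[E] F) : (isPullback_pr f E).isoPullback.hom ≫ tw (fE f E) σ =
    tw f (σ.restrictScalars K) ≫ (isPullback_pr f E).isoPullback.hom := by
  apply pullback.hom_ext
  · rw [Category.assoc, tw_fst, Category.assoc, IsPullback.isoPullback_hom_fst, tw_pr]
  · rw [Category.assoc, tw_snd, Category.assoc, IsPullback.isoPullback_hom_snd, tw_snd,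
      ← Category.assoc, IsPullback.isoPullback_hom_snd]
    rfl

theorem isIso_fE_appTop [CompactSpace X] [QuasiSeparatedSpace X] (hH0 : IsIso f.appTop) :
    IsIso (fE f E).appTop :=
  Groth.Agent.Picfga.H0.isIso_app f hH0 (Over.mk (bc K E)) ⊤

/-- Every class on `X_F` fixed by `Gal(F/E)` comes from `X_E`. -/
theorem exists_pr_eq [CompactSpace X] [QuasiSeparatedSpace X] [IsGalois E F] (hH0 : IsIso f.appTop)
    (x : Spec (CommRingCat.of K) ⟶ X) (hx : x ≫ f = 𝟙 _) (c : Pic (pullback f (bc K F)))
    (hc : ∀ σ : F ≃ₐ[E] F, pull (tw f (σ.restrictScalars K)) c = c) :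
    ∃ d : Pic (pullback f (bc K E)), pull (pr f E) d = c := by
  have : QuasiCompact f := HasAffineProperty.iff_of_isAffine.mpr (by infer_instance)
  have : QuasiSeparated f := HasAffineProperty.iff_of_isAffine.mpr (by infer_instance)
  have h1 : CompactSpace ↥(pullback f (bc K E)) :=
    QuasiCompact.compactSpace_of_compactSpace (pullback.snd f (bc K E))
  have h2 : QuasiSeparatedSpace ↥(pullback f (bc K E)) :=
    quasiSeparatedSpace_of_quasiSeparated (pullback.snd f (bc K E))
  let e := (isPullback_pr f E).isoPullback
  have key := S1157.result E (pullback f (bc K E)) (fE f E) (isIso_fE_appTop f E hH0)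
    (pullback.lift (bc K E ≫ x) (𝟙 _) (by rw [Category.assoc, hx, Category.comp_id, Category.id_comp]))
    (pullback.lift_snd _ _ _) F (ofPic (pull e.inv c)) (isInvertibleCl_ofPic _) (fun σ => by
      rw [← ofPic_pull, ← pull_comp]
      have h3 : PicF2.twistAut (fE f E) σ ≫ e.inv = e.inv ≫ tw f (σ.restrictScalars K) := by
        rw [Iso.comp_inv_eq, Category.assoc, ← tw_isoPullback, Iso.inv_hom_id_assoc]
      rw [h3, pull_comp, hc])
  obtain ⟨c₀, hc₀, h4⟩ := key
  obtain ⟨d, rfl⟩ := exists_ofPic hc₀
  refine ⟨d, ?_⟩
  rw [← ofPic_pull] at h4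
  have h5 := congrArg (pull e.hom) (ofPic_injective h4)
  rw [← pull_comp, ← pull_comp, e.hom_inv_id, pull_id] at h5
  rw [← h5]
  congr 2
  exact ((isPullback_pr f E).isoPullback_hom_fst).symm

variable (n : ℕ)

/-- The `n`-torsion of the Picard group. -/
abbrev Tors (Y : Scheme.{u}) (n : ℕ) : Type (u + 1) := {c : Pic Y // c ^ n = 1}

/-- The Galois action on the torsion. -/
noncomputable def act : (F ≃ₐ[K] F) →* Equiv.Perm (Tors (pullback f (bc K F)) n) :=
  MonoidHom.toHomPerm
    { toFun := fun σ c => ⟨pull (tw f σ) c.1, by rw [← map_pow, c.2, map_one]⟩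
      map_one' := by
        funext c
        apply Subtype.ext
        change pull (tw f 1) c.1 = c.1
        rw [tw_one, pull_id]
      map_mul' := fun σ τ => by
        funext c
        apply Subtype.ext
        change pull (tw f (σ * τ)) c.1 = pull (tw f σ) (pull (tw f τ) c.1)
        rw [tw_mul, pull_comp] }

theorem act_apply (σ : F ≃ₐ[K] F) (c : Tors (pullback f (bc K F)) n) :
    (act f n σ c).1 = pull (tw f σ) c.1 := rfl

theorem exists_intermediateField [FiniteDimensional K F] [IsGalois K F] [CompactSpace X]
    [QuasiSeparatedSpace X] (hH0 : IsIso f.appTop)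
    (x : Spec (CommRingCat.of K) ⟶ X) (hx : x ≫ f = 𝟙 _)
    [Finite (Tors (pullback f (bc K F)) n)] :
    ∃ E : IntermediateField K F,
      Module.finrank K E ≤ (Nat.card (Tors (pullback f (bc K F)) n)).factorial ∧
      Nat.card (Tors (pullback f (bc K E)) n) = Nat.card (Tors (pullback f (bc K F)) n) := by
  classical
  let H : Subgroup (F ≃ₐ[K] F) := (act (F := F) f n).ker
  let E : IntermediateField K F := IntermediateField.fixedField H
  refine ⟨E, ?_, ?_⟩
  · rw [IntermediateField.finrank_eq_fixingSubgroup_index, IntermediateField.fixingSubgroup_fixedField,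
      Subgroup.index_ker]
    refine (Finite.card_subtype_le _).trans ?_
    have := Fintype.ofFinite (Tors (pullback f (bc K F)) n)
    rw [Nat.card_eq_fintype_card, Nat.card_eq_fintype_card, Fintype.card_perm]
  · refine Nat.card_eq_of_bijective (fun c : Tors (pullback f (bc K E)) n =>
      (⟨pull (pr f E) c.1, by rw [← map_pow, c.2, map_one]⟩ : Tors (pullback f (bc K F)) n)) ⟨?_, ?_⟩
    · intro a b hab
      have : QuasiCompact f := HasAffineProperty.iff_of_isAffine.mpr (by infer_instance)
      have : QuasiSeparated f := HasAffineProperty.iff_of_isAffine.mpr (by infer_instance)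
      have h1 : CompactSpace ↥(pullback f (bc K E)) :=
        QuasiCompact.compactSpace_of_compactSpace (pullback.snd f (bc K E))
      have h2 : QuasiSeparatedSpace ↥(pullback f (bc K E)) :=
        quasiSeparatedSpace_of_quasiSeparated (pullback.snd f (bc K E))
      exact Subtype.ext (pull_injective (isPullback_pr f E) (isIso_fE_appTop f E hH0)
        (congrArg Subtype.val hab))
    · intro c
      obtain ⟨d, hd⟩ := exists_pr_eq f E hH0 x hx c.1 (fun σ => by
        have h1 : σ.restrictScalars K ∈ E.fixingSubgroup := by
          intro y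
          exact σ.commutes y
        rw [IntermediateField.fixingSubgroup_fixedField] at h1
        have h2 : act f n (σ.restrictScalars K) = 1 := h1
        have h3 := congrArg Subtype.val (congrArg (fun e => e c) h2)
        exact h3)
      have : QuasiCompact f := HasAffineProperty.iff_of_isAffine.mpr (by infer_instance)
      have : QuasiSeparated f := HasAffineProperty.iff_of_isAffine.mpr (by infer_instance)
      have h1 : CompactSpace ↥(pullback f (bc K E)) :=
        QuasiCompact.compactSpace_of_compactSpace (pullback.snd f (bc K E))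
      have h2 : QuasiSeparatedSpace ↥(pullback f (bc K E)) :=
        quasiSeparatedSpace_of_quasiSeparated (pullback.snd f (bc K E))
      refine ⟨⟨d, pull_injective (isPullback_pr f E) (isIso_fE_appTop f E hH0) ?_⟩, Subtype.ext hd⟩
      rw [map_pow, hd, c.2, map_one]

end

end Groth.Agent.Models.H58.GalDesc
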