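import Groth.Prelude.Def_ModelsG
import Groth.Agent.Models.H58.GalDesc
import Groth.Agent.Models.H58.DVRExt
import Groth.Agent.Models.H58.CurveBC
import Groth.Agent.S1565
import Groth.Agent.S1550
import Groth.Agent.VarietyB.ResMap

/-!
# Extensions over which a curve has a rational point and full `n`-torsion

Conditional on `ExtA` (existence of a finite Galois extension over which the `n`-torsion of the Picard group
has `n^(2g)` elements).
-/

set_option autoImplicit false
universe u
open CategoryTheory CategoryTheory.Limits AlgebraicGeometry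

namespace Groth.Agent.Models.H58.ExtMain

open Groth.Agent.Grpsch.PicGrp Groth.Agent.CurvesB
open Groth.Agent.Picfga.FieldSections GalDesc

/-- The statement of EXT-A (helper74). -/
def ExtA : Prop := ∀ (K : Type u) [Field K] (C : Scheme.{u}) (f : C ⟶ Spec (CommRingCat.of K))
  (_ : Curve.IsSmoothProperCurve K C f) (_ : IsIso f.appTop) (n : ℕ) (_ : (n : K) ≠ 0),
  ∃ (F : Type u) (_ : Field F) (_ : Algebra K F) (_ : FiniteDimensional K F) (_ : IsGalois K F),
    Nat.card (Tors (pullback f (bc K F)) n) = n ^ (2 * Models.curveGenus K C f)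

theorem finrank_H0 (k : Type u) [Field k] (X : Scheme.{u}) [X.Over (Spec (CommRingCat.of k))]
    (h : IsIso (X ↘ Spec (CommRingCat.of k)).appTop) :
    Module.finrank k (Coh.HH X (Coh.structureModule X) 0) = 1 := by
  let _ := HZero.moduleΓ k (Coh.structureModule X)
  have h1 : Function.Bijective (HZero.gl k X) := by
    have h2 := ConcreteCategory.bijective_of_isIso (X ↘ Spec (CommRingCat.of k)).appTop
    have h3 := ConcreteCategory.bijective_of_isIso (Scheme.ΓSpecIso (CommRingCat.of k)).inv
    exact h2.comp h3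
  have hs : Function.Bijective (LinearMap.toSpanSingleton k Γ(Coh.structureModule X, ⊤)
      (show Γ(Coh.structureModule X, ⊤) from (1 : Γ(X, ⊤)))) := by
    have : ∀ a : k, (LinearMap.toSpanSingleton k Γ(Coh.structureModule X, ⊤)
        (show Γ(Coh.structureModule X, ⊤) from (1 : Γ(X, ⊤)))) a =
          (show Γ(Coh.structureModule X, ⊤) from (HZero.gl k X a : Γ(X, ⊤))) := by
      intro a
      change HZero.gl k X a * 1 = _
      rw [mul_one]
    constructor
    · intro a b hab
      rw [this, this] at hab
      exact h1.1 hab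
    · intro s
      obtain ⟨a, ha⟩ := h1.2 s
      exact ⟨a, (this a).trans ha⟩
  rw [(HZero.equivLin k (Coh.structureModule X)).finrank_eq,
    ← (LinearEquiv.ofBijective _ hs).finrank_eq, Module.finrank_self]

theorem pull_bijective {X Y : Scheme.{u}} (e : X ⟶ Y) [IsIso e] : Function.Bijective (pull e) := by
  constructor
  · intro a b h
    have h1 := congrArg (pull (inv e)) h
    rwa [← pull_comp, ← pull_comp, IsIso.inv_hom_id, pull_id, pull_id] at h1
  · intro a
    refine ⟨pull (inv e) a, ?_⟩
    rw [← pull_comp, IsIso.hom_inv_id, pull_id]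

/-- The `n`-torsion of the Picard group only depends on the isomorphism class. -/
theorem card_tors_congr {X Y : Scheme.{u}} (e : X ≅ Y) (n : ℕ) :
    Nat.card (Tors X n) = Nat.card (Tors Y n) := by
  refine (Nat.card_congr (Equiv.ofBijective (fun c : Tors Y n =>
    (⟨pull e.hom c.1, by rw [← map_pow, c.2, map_one]⟩ : Tors X n)) ⟨?_, ?_⟩)).symm
  · intro a b hab
    exact Subtype.ext ((pull_bijective e.hom).1 (congrArg Subtype.val hab))
  · intro c
    obtain ⟨d, hd⟩ := (pull_bijective e.hom).2 c.1
    refine ⟨⟨d, ?_⟩, Subtype.ext hd⟩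
    apply (pull_bijective e.hom).1
    rw [map_pow, hd, c.2, map_one]

section

variable {K : Type u} [Field K] {C : Scheme.{u}} (f : C ⟶ Spec (CommRingCat.of K))

/-- Two-step base change. -/
theorem isPullback_trans (K₁ E : Type u) [Field K₁] [Field E] [Algebra K K₁] [Algebra K₁ E] [Algebra K E]
    [IsScalarTower K K₁ E] :
    IsPullback (pullback.fst (pullback.snd f (bc K K₁)) (bc K₁ E) ≫ pullback.fst f (bc K K₁))
      (pullback.snd (pullback.snd f (bc K K₁)) (bc K₁ E)) f (bc K E) := by
  have h1 := (IsPullback.of_hasPullback (pullback.snd f (bc K K₁)) (bc K₁ E)).flip.paste_vert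
    (IsPullback.of_hasPullback f (bc K K₁)).flip
  have h2 : bc K₁ E ≫ bc K K₁ = bc K E := by
    rw [bc, bc, bc, ← Spec.map_comp, ← CommRingCat.ofHom_comp, ← IsScalarTower.algebraMap_eq]
  rw [h2] at h1
  exact h1.flip

/-- EXT with a rational point. -/
theorem exists_ext_of_point (hA : ExtA.{u}) (hC : Curve.IsSmoothProperCurve K C f) (hH0 : IsIso f.appTop)
    (x : Spec (CommRingCat.of K) ⟶ C) (hx : x ≫ f = 𝟙 _) (n : ℕ) (hn : (n : K) ≠ 0) :
    ∃ (E : Type u) (_ : Field E) (_ : Algebra K E), FiniteDimensional K E ∧ Algebra.IsSeparable K E ∧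
      Module.finrank K E ≤ (n ^ (2 * Models.curveGenus K C f)).factorial ∧
      Nat.card (Tors (pullback f (bc K E)) n) = n ^ (2 * Models.curveGenus K C f) := by
  obtain ⟨F, _, _, _, _, hF⟩ := hA K C f hC hH0 n hn
  have hn0 : n ≠ 0 := by rintro rfl; simp at hn
  have hc : CompactSpace C := by
    have := hC.1
    exact (quasiCompact_iff_compactSpace f).mp inferInstance
  have hq : QuasiSeparatedSpace C := by
    have := hC.1
    exact (quasiSeparated_iff_quasiSeparatedSpace f).mp inferInstance
  have hfin : Finite (Tors (pullback f (bc K F)) n) := by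
    apply Nat.finite_of_card_ne_zero
    rw [hF]
    exact pow_ne_zero _ hn0
  obtain ⟨E, h1, h2⟩ := exists_intermediateField (F := F) f n hH0 x hx
  rw [hF] at h1 h2
  exact ⟨E, inferInstance, inferInstance, inferInstance, inferInstance, h1, h2⟩

/-- EXT from a closed point with finite separable residue field. -/
theorem exists_ext_of_residue (hA : ExtA.{u}) (hC : Curve.IsSmoothProperCurve K C f) (hH0 : IsIso f.appTop)
    (x : C) (d : ℕ)
    (hfd : @Module.Finite K (C.residueField x) _ _ (@Curv2.resAlgebra K _ C ⟨f⟩ x).toModule)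
    (hsep : @Algebra.IsSeparable K (C.residueField x) _ _ (@Curv2.resAlgebra K _ C ⟨f⟩ x))
    (hdeg : @Module.finrank K (C.residueField x) _ _ (@Curv2.resAlgebra K _ C ⟨f⟩ x).toModule ≤ d)
    (n : ℕ) (hn : (n : K) ≠ 0) :
    ∃ (E : Type u) (_ : Field E) (_ : Algebra K E), FiniteDimensional K E ∧ Algebra.IsSeparable K E ∧
      Module.finrank K E ≤ d * (n ^ (2 * Models.curveGenus K C f)).factorial ∧
      (∃ t : Spec (CommRingCat.of E) ⟶ C, t ≫ f = bc K E) ∧
      Nat.card (Tors (pullback f (bc K E)) n) = n ^ (2 * Models.curveGenus K C f) := by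
  letI : C.Over (Spec (CommRingCat.of K)) := ⟨f⟩
  letI : Algebra K (C.residueField x) := Curv2.resAlgebra K C x
  have hp := hC.1
  -- the base change
  have H := IsPullback.of_hasPullback f (bc K (C.residueField x))
  have hC₁ := CurveBC.isSmoothProperCurve H hC hH0
  have hc : CompactSpace C := (quasiCompact_iff_compactSpace f).mp inferInstance
  have hq : QuasiSeparatedSpace C := (quasiSeparated_iff_quasiSeparatedSpace f).mp inferInstance
  have hH0₁ := CurveBC.isIso_appTop H hH0
  have hgen := CurveBC.curveGenus_eq H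
  have hpt : C.fromSpecResidueField x ≫ f = bc K (C.residueField x) :=
    (VarietyB.ResMap.specMap_resMap K C x).symm
  obtain ⟨E, _, _, hEf, hEs, hEd, hEc⟩ := exists_ext_of_point
    (pullback.snd f (bc K (C.residueField x))) hA hC₁ hH0₁
    (pullback.lift (C.fromSpecResidueField x) (𝟙 _) (by rw [hpt, Category.id_comp]))
    (pullback.lift_snd _ _ _) n (by
      intro h
      apply hn
      apply (algebraMap K (C.residueField x)).injective
      rw [map_natCast, map_zero, h])
  rw [hgen] at hEd hEc
  letI : Algebra K E := ((algebraMap (C.residueField x) E).comp (algebraMap K (C.residueField x))).toAlgebra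
  have : IsScalarTower K (C.residueField x) E := IsScalarTower.of_algebraMap_eq (fun _ => rfl)
  refine ⟨E, inferInstance, inferInstance, FiniteDimensional.trans K (C.residueField x) E,
    Algebra.IsSeparable.trans K (C.residueField x) E, ?_,
    ⟨bc (C.residueField x) E ≫ C.fromSpecResidueField x, ?_⟩, ?_⟩
  · rw [← Module.finrank_mul_finrank K (C.residueField x) E]
    exact Nat.mul_le_mul hdeg hEd
  · rw [Category.assoc, hpt, bc, bc, bc, ← Spec.map_comp, ← CommRingCat.ofHom_comp,
      ← IsScalarTower.algebraMap_eq]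
  · rw [← hEc]
    exact card_tors_congr (isPullback_trans f (C.residueField x) E).isoPullback.symm n

/-- **The extension part of semistable reduction with the degree bound.** -/
theorem exists_ext (hA : ExtA.{u}) (hC : Curve.IsSmoothProperCurve K C f) (hH0 : IsIso f.appTop)
    (hg : 2 ≤ Models.curveGenus K C f) (n : ℕ) (hn : (n : K) ≠ 0) :
    ∃ (E : Type u) (_ : Field E) (_ : Algebra K E), FiniteDimensional K E ∧ Algebra.IsSeparable K E ∧
      Module.finrank K E ≤ (2 * Models.curveGenus K C f - 2) *
        (n ^ (2 * Models.curveGenus K C f)).factorial ∧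
      (∃ t : Spec (CommRingCat.of E) ⟶ C, t ≫ f = bc K E) ∧
      Nat.card (Tors (pullback f (bc K E)) n) = n ^ (2 * Models.curveGenus K C f) := by
  letI : C.Over (Spec (CommRingCat.of K)) := ⟨f⟩
  obtain ⟨x, -, hsep, hdeg, hfd⟩ := S1565.result K C hC (finrank_H0 K C hH0) hg
  exact exists_ext_of_residue f hA hC hH0 x _ hfd hsep hdeg n hn

/-- **The extension part of semistable reduction, without a bound.** -/
theorem exists_ext_any (hA : ExtA.{u}) (hC : Curve.IsSmoothProperCurve K C f) (hH0 : IsIso f.appTop)
    (n : ℕ) (hn : (n : K) ≠ 0) :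
    ∃ (E : Type u) (_ : Field E) (_ : Algebra K E), FiniteDimensional K E ∧ Algebra.IsSeparable K E ∧
      (∃ t : Spec (CommRingCat.of E) ⟶ C, t ≫ f = bc K E) ∧
      Nat.card (Tors (pullback f (bc K E)) n) = n ^ (2 * Models.curveGenus K C f) := by
  letI : C.Over (Spec (CommRingCat.of K)) := ⟨f⟩
  have hsm : Smooth (C ↘ Spec (CommRingCat.of K)) := hC.2.1
  have hint : IsIntegral C := hC.2.2.1
  obtain ⟨x, -, hfd, hsep⟩ := (S1550.result K C).nonempty
  obtain ⟨E, i1, i2, h1, h2, -, h3, h4⟩ := exists_ext_of_residue f hA hC hH0 x _ hfd hsep le_rfl n hn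
  exact ⟨E, i1, i2, h1, h2, h3, h4⟩

end

end Groth.Agent.Models.H58.ExtMain
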