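import Groth.Agent.Models.H58.ExtMain
import Mathlib.NumberTheory.PrimeCounting

/-!
# Semistable reduction (with and without the degree bound) from the core theorem and the extension part

The core theorem: a curve with a rational point and full `l`-torsion of the Picard group, `l` a large prime different
from the residue characteristic, has semistable reduction.
-/

set_option autoImplicit false
universe u
open CategoryTheory CategoryTheory.Limits AlgebraicGeometry

namespace Groth.Agent.Models.H58.Final

open Groth.Agent.Grpsch.PicGrp Groth.Agent.CurvesB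
open Groth.Agent.Picfga.FieldSections GalDesc ExtMain

/-- The statement of the core theorem for curves of genus `g`, with `N < l`. -/
def CoreAt (g N : ℕ) : Prop := ∀ (R : Type u) [CommRing R] [IsDomain R] [IsDiscreteValuationRing R]
  (C : Scheme.{u}) (f : C ⟶ Spec (CommRingCat.of (FractionRing R)))
  (_ : Curve.IsSmoothProperCurve (FractionRing R) C f) (_ : IsIso f.appTop)
  (s : Spec (CommRingCat.of (FractionRing R)) ⟶ C) (_ : s ≫ f = 𝟙 _)
  (_ : Models.curveGenus (FractionRing R) C f = g) (l : ℕ) (_ : l.Prime)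
  (_ : (l : IsLocalRing.ResidueField R) ≠ 0) (_ : N < l)
  (_ : Nat.card {c : Pic C // c ^ l = 1} = l ^ (2 * g)),
  Models.HasSemistableReduction R C f

theorem setOf_infinite (N : ℕ) : (setOf (fun l => Nat.Prime l ∧ N < l)).Infinite := by
  intro h
  obtain ⟨b, hb⟩ := h.bddAbove
  obtain ⟨p, hp, hpp⟩ := Nat.exists_infinite_primes (max b N + 1)
  have h1 := hb (show p ∈ setOf (fun l => Nat.Prime l ∧ N < l) from ⟨hpp, by omega⟩)
  omega

/-- One of the first two primes exceeding `N` is nonzero in a given field. -/
theorem exists_prime (N : ℕ) (k : Type u) [Field k] :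
    ∃ l : ℕ, l.Prime ∧ N < l ∧ (l : k) ≠ 0 ∧ l ≤ Nat.nth (fun l => Nat.Prime l ∧ N < l) 1 := by
  have hinf := setOf_infinite N
  have h0 := Nat.nth_mem_of_infinite hinf 0
  have h1 := Nat.nth_mem_of_infinite hinf 1
  have hlt : Nat.nth (fun l => Nat.Prime l ∧ N < l) 0 < Nat.nth (fun l => Nat.Prime l ∧ N < l) 1 :=
    Nat.nth_strictMono hinf Nat.zero_lt_one
  by_cases h : ((Nat.nth (fun l => Nat.Prime l ∧ N < l) 0 : ℕ) : k) = 0
  · refine ⟨_, h1.1, h1.2, ?_, le_rfl⟩
    intro h'
    have hcop : Nat.Coprime (Nat.nth (fun l => Nat.Prime l ∧ N < l) 0)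
        (Nat.nth (fun l => Nat.Prime l ∧ N < l) 1) :=
      (Nat.coprime_primes h0.1 h1.1).mpr hlt.ne
    have h2 := Nat.isCoprime_iff_coprime.mpr hcop
    obtain ⟨a, b, hab⟩ := h2
    have h3 := congrArg (Int.cast : ℤ → k) hab
    push_cast at h3
    rw [h, h', mul_zero, mul_zero, add_zero] at h3
    exact zero_ne_one h3
  · exact ⟨_, h0.1, h0.2, h, hlt.le⟩

variable (R : Type u) [CommRing R] [IsDomain R] [IsDiscreteValuationRing R]
  (C : Scheme.{u}) (f : C ⟶ Spec (CommRingCat.of (FractionRing R)))

theorem natCast_ne_zero (l : ℕ) (hlk : (l : IsLocalRing.ResidueField R) ≠ 0) : (l : FractionRing R) ≠ 0 := by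
  have h1 : (l : R) ≠ 0 := by
    intro h
    apply hlk
    have := congrArg (IsLocalRing.residue R) h
    rwa [map_natCast, map_zero] at this
  intro h
  apply h1
  apply IsFractionRing.injective R (FractionRing R)
  rw [map_natCast, map_zero, h]

/-- From an extension with a rational point and full torsion to semistable reduction. -/
theorem main_of_ext {N : ℕ} (hCore : CoreAt.{u} (Models.curveGenus (FractionRing R) C f) N)
    (hC : Curve.IsSmoothProperCurve (FractionRing R) C f) (hH0 : IsIso f.appTop)
    (l : ℕ) (hlp : l.Prime) (hl : N < l) (hlk : (l : IsLocalRing.ResidueField R) ≠ 0)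
    (E : Type u) [Field E] [Algebra (FractionRing R) E] [FiniteDimensional (FractionRing R) E]
    [Algebra.IsSeparable (FractionRing R) E]
    (t : Spec (CommRingCat.of E) ⟶ C) (ht : t ≫ f = bc (FractionRing R) E)
    (hEc : Nat.card (Tors (pullback f (bc (FractionRing R) E)) l) =
      l ^ (2 * Models.curveGenus (FractionRing R) C f)) :
    ∃ (R' : Type u) (_ : CommRing R') (_ : IsDomain R') (_ : IsDiscreteValuationRing R')
      (φ : R →+* R') (ψ : FractionRing R →+* FractionRing R'),
      Models.IsDVRExtension R φ ∧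
      ψ.comp (algebraMap R (FractionRing R)) = (algebraMap R' (FractionRing R')).comp φ ∧
      Models.IsFiniteSeparable ψ ∧
      Models.homDegree ψ = Module.finrank (FractionRing R) E ∧
      Models.HasSemistableReduction R' (pullback f (Spec.map (CommRingCat.ofHom ψ)))
        (pullback.snd f (Spec.map (CommRingCat.ofHom ψ))) := by
  obtain ⟨R', _, _, _, φ, e, hφ, hcomp⟩ := DVRExt.exists_dvr R E
  let ψ : FractionRing R →+* FractionRing R' := (e : E →+* FractionRing R').comp
    (algebraMap (FractionRing R) E)
  letI : Algebra (FractionRing R) (FractionRing R') := ψ.toAlgebra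
  let ea : E ≃ₐ[FractionRing R] FractionRing R' := AlgEquiv.ofRingEquiv (f := e) (fun r => rfl)
  have hfin : FiniteDimensional (FractionRing R) (FractionRing R') :=
    Module.Finite.equiv ea.toLinearEquiv
  have hsep : Algebra.IsSeparable (FractionRing R) (FractionRing R') :=
    Algebra.IsSeparable.of_algHom (FractionRing R) E ea.symm.toAlgHom
  have hdeg : Module.finrank (FractionRing R) (FractionRing R') = Module.finrank (FractionRing R) E :=
    ea.symm.toLinearEquiv.finrank_eq
  have H : IsPullback (pullback.fst f (Spec.map (CommRingCat.ofHom ψ)))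
      (pullback.snd f (Spec.map (CommRingCat.ofHom ψ))) f
      (Spec.map (CommRingCat.ofHom (algebraMap (FractionRing R) (FractionRing R')))) :=
    IsPullback.of_hasPullback f (Spec.map (CommRingCat.ofHom ψ))
  have hC' := CurveBC.isSmoothProperCurve H hC hH0
  have hp := hC.1
  have hc : CompactSpace C := (quasiCompact_iff_compactSpace f).mp inferInstance
  have hq : QuasiSeparatedSpace C := (quasiSeparated_iff_quasiSeparatedSpace f).mp inferInstance
  have hH0' := CurveBC.isIso_appTop H hH0
  have hgen := CurveBC.curveGenus_eq H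
  have hψ : Spec.map (CommRingCat.ofHom ψ) =
      Spec.map (CommRingCat.ofHom (e : E →+* FractionRing R')) ≫ bc (FractionRing R) E := by
    rw [bc, ← Spec.map_comp, ← CommRingCat.ofHom_comp]
  have hiso : IsIso (Spec.map (CommRingCat.ofHom (e : E →+* FractionRing R'))) := by
    have : IsIso (CommRingCat.ofHom (e : E →+* FractionRing R')) :=
      inferInstanceAs (IsIso e.toCommRingCatIso.hom)
    infer_instance
  refine ⟨R', inferInstance, inferInstance, inferInstance, φ, ψ, hφ, hcomp, ⟨hfin, hsep⟩, hdeg, ?_⟩
  refine hCore R' _ _ hC' hH0'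
    (pullback.lift (Spec.map (CommRingCat.ofHom (e : E →+* FractionRing R')) ≫ t) (𝟙 _)
      (by rw [Category.assoc, ht, ← hψ, Category.id_comp])) (pullback.lift_snd _ _ _)
    hgen l hlp ?_ hl ?_
  · intro h
    apply hlk
    have hloc := hφ.2
    have h1 : IsLocalRing.ResidueField.map φ (l : IsLocalRing.ResidueField R) =
        (l : IsLocalRing.ResidueField R') := map_natCast _ _
    rw [h] at h1
    exact (map_eq_zero _).mp h1
  · rw [← hEc]
    have H2 : IsPullback (pullback.fst f (Spec.map (CommRingCat.ofHom ψ)))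
        (pullback.snd f (Spec.map (CommRingCat.ofHom ψ)) ≫
          Spec.map (CommRingCat.ofHom (e : E →+* FractionRing R'))) f (bc (FractionRing R) E) := by
      have h3 := IsPullback.of_hasPullback f (Spec.map (CommRingCat.ofHom ψ))
      refine IsPullback.of_iso h3 (Iso.refl _) (Iso.refl _)
        (asIso (Spec.map (CommRingCat.ofHom (e : E →+* FractionRing R')))) (Iso.refl _) ?_ ?_ ?_ ?_
      · simp
      · simp
      · simp
      · simp [hψ]
    exact card_tors_congr H2.isoPullback l

/-- **Semistable reduction with the degree bound** from the core theorem. -/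
theorem main (hA : ExtA.{u})
    (hCore : ∀ g : ℕ, 2 ≤ g → CoreAt.{u} g (768 * g))
    (hC : Curve.IsSmoothProperCurve (FractionRing R) C f) (hH0 : IsIso f.appTop)
    (hg : 2 ≤ Models.curveGenus (FractionRing R) C f) :
    ∃ (R' : Type u) (_ : CommRing R') (_ : IsDomain R') (_ : IsDiscreteValuationRing R')
      (φ : R →+* R') (ψ : FractionRing R →+* FractionRing R'),
      Models.IsDVRExtension R φ ∧
      ψ.comp (algebraMap R (FractionRing R)) = (algebraMap R' (FractionRing R')).comp φ ∧
      Models.IsFiniteSeparable ψ ∧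
      Models.homDegree ψ ≤ (2 * Models.curveGenus (FractionRing R) C f - 2) *
        Nat.factorial (Nat.nth (fun l => Nat.Prime l ∧ 768 * Models.curveGenus (FractionRing R) C f < l) 1 ^
          (2 * Models.curveGenus (FractionRing R) C f)) ∧
      Models.HasSemistableReduction R' (pullback f (Spec.map (CommRingCat.ofHom ψ)))
        (pullback.snd f (Spec.map (CommRingCat.ofHom ψ))) := by
  obtain ⟨l, hlp, hl, hlk, hle⟩ := exists_prime (768 * Models.curveGenus (FractionRing R) C f)
    (IsLocalRing.ResidueField R)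
  obtain ⟨E, _, _, hEf, hEs, hEd, ⟨t, ht⟩, hEc⟩ := exists_ext f hA hC hH0 hg l (natCast_ne_zero R l hlk)
  obtain ⟨R', i1, i2, i3, φ, ψ, h1, h2, h3, h4, h5⟩ :=
    main_of_ext R C f (hCore _ hg) hC hH0 l hlp hl hlk E t ht hEc
  exact ⟨R', i1, i2, i3, φ, ψ, h1, h2, h3, h4.le.trans
    (hEd.trans (Nat.mul_le_mul le_rfl (Nat.factorial_le (Nat.pow_le_pow_left hle _)))), h5⟩

/-- **Semistable reduction** from the core theorem. -/
theorem main_any (hA : ExtA.{u}) (N : ℕ)
    (hCore : CoreAt.{u} (Models.curveGenus (FractionRing R) C f) N)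
    (hC : Curve.IsSmoothProperCurve (FractionRing R) C f) (hH0 : IsIso f.appTop) :
    ∃ (R' : Type u) (_ : CommRing R') (_ : IsDomain R') (_ : IsDiscreteValuationRing R')
      (φ : R →+* R') (ψ : FractionRing R →+* FractionRing R'),
      Models.IsDVRExtension R φ ∧
      ψ.comp (algebraMap R (FractionRing R)) = (algebraMap R' (FractionRing R')).comp φ ∧
      Models.IsFiniteSeparable ψ ∧
      Models.HasSemistableReduction R' (pullback f (Spec.map (CommRingCat.ofHom ψ)))
        (pullback.snd f (Spec.map (CommRingCat.ofHom ψ))) := by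
  obtain ⟨l, hlp, hl, hlk, -⟩ := exists_prime N (IsLocalRing.ResidueField R)
  obtain ⟨E, _, _, hEf, hEs, ⟨t, ht⟩, hEc⟩ := exists_ext_any f hA hC hH0 l (natCast_ne_zero R l hlk)
  obtain ⟨R', i1, i2, i3, φ, ψ, h1, h2, h3, h4, h5⟩ :=
    main_of_ext R C f hCore hC hH0 l hlp hl hlk E t ht hEc
  exact ⟨R', i1, i2, i3, φ, ψ, h1, h2, h3, h5⟩

end Groth.Agent.Models.H58.Final
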