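import Groth.Agent.Models.H58.P1Model
import Groth.Agent.Models.H58.DVRExt
import Groth.Prelude.Def_ModelsG

/-!
# Semistable reduction of curves of genus zero from a splitting field
-/

set_option autoImplicit false
universe u
open CategoryTheory CategoryTheory.Limits AlgebraicGeometry

namespace Groth.Agent.Models.H58.GenusZero

open CohB1 Groth.Agent.CohqB.ProjBC P1Model

/-- If a curve becomes the projective line after a finite separable extension then it acquires semistable reduction
after an extension of discrete valuation rings. -/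
theorem main (R : Type u) [CommRing R] [IsDomain R] [IsDiscreteValuationRing R]
    (C : Scheme.{u}) (f : C ⟶ Spec (CommRingCat.of (FractionRing R)))
    (h : ∃ (K' : Type u) (_ : Field K') (ψ : FractionRing R →+* K'),
      Models.IsFiniteSeparable ψ ∧ Models.homDegree ψ ≤ 2 ∧
      ∃ e : (pullback f (Spec.map (CommRingCat.ofHom ψ))) ≅ CohB1.ProjSpace 1 K',
        e.hom ≫ CohB1.ProjSpace.toSpec 1 K' = (pullback.snd f (Spec.map (CommRingCat.ofHom ψ)))) :
    ∃ (R' : Type u) (_ : CommRing R') (_ : IsDomain R') (_ : IsDiscreteValuationRing R')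
      (φ : R →+* R') (ψ : FractionRing R →+* FractionRing R'),
      Models.IsDVRExtension R φ ∧
      ψ.comp (algebraMap R (FractionRing R)) = (algebraMap R' (FractionRing R')).comp φ ∧
      Models.IsFiniteSeparable ψ ∧
      Models.HasSemistableReduction R' (pullback f (Spec.map (CommRingCat.ofHom ψ)))
        (pullback.snd f (Spec.map (CommRingCat.ofHom ψ))) := by
  obtain ⟨E, _, ψ₀, ⟨hfin₀, hsep₀⟩, -, e₀, he₀⟩ := h
  let _ : Algebra (FractionRing R) E := ψ₀.toAlgebra
  have hfin₁ : FiniteDimensional (FractionRing R) E := hfin₀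
  have hsep₁ : Algebra.IsSeparable (FractionRing R) E := hsep₀
  obtain ⟨R', _, _, _, φ, e, hφ, hcomp⟩ := DVRExt.exists_dvr R E
  let ψ : FractionRing R →+* FractionRing R' := (e : E →+* FractionRing R').comp ψ₀
  letI : Algebra (FractionRing R) (FractionRing R') := ψ.toAlgebra
  let ea : E ≃ₐ[FractionRing R] FractionRing R' := AlgEquiv.ofRingEquiv (f := e) (fun r => rfl)
  have hfin : FiniteDimensional (FractionRing R) (FractionRing R') :=
    Module.Finite.equiv ea.toLinearEquiv
  have hsep : Algebra.IsSeparable (FractionRing R) (FractionRing R') :=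
    Algebra.IsSeparable.of_algHom (FractionRing R) E ea.symm.toAlgHom
  have hψ : Spec.map (CommRingCat.ofHom ψ) =
      Spec.map (CommRingCat.ofHom (e : E →+* FractionRing R')) ≫ Spec.map (CommRingCat.ofHom ψ₀) := by
    rw [← Spec.map_comp, ← CommRingCat.ofHom_comp]
  refine ⟨R', inferInstance, inferInstance, inferInstance, φ, ψ, hφ, hcomp, ⟨hfin, hsep⟩, ?_⟩
  -- the projective line over `Frac R'` as a base change of `C`
  have h1 := isPullback_pmap (e : E →+* FractionRing R') 1
  have h2 : IsPullback (e₀.inv ≫ pullback.fst f (Spec.map (CommRingCat.ofHom ψ₀)))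
      (ProjSpace.toSpec 1 E) f (Spec.map (CommRingCat.ofHom ψ₀)) :=
    IsPullback.of_iso (IsPullback.of_hasPullback f (Spec.map (CommRingCat.ofHom ψ₀))) e₀ (Iso.refl _)
      (Iso.refl _) (Iso.refl _) (by simp) (by simp [he₀]) (by simp) (by simp)
  have h3 := h1.flip.paste_vert h2.flip
  rw [← hψ] at h3
  let e' := (IsPullback.of_hasPullback f (Spec.map (CommRingCat.ofHom ψ))).isoIsPullback _ _ h3.flip
  exact hasSemistableReduction_of_iso_P1 R' _ e' (IsPullback.isoIsPullback_hom_snd _ _ _ _)

end Groth.Agent.Models.H58.GenusZero
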