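import Groth.Agent.Models.H73.NodeLocal4
import Mathlib.RingTheory.Ideal.GoingUp
import Mathlib.RingTheory.Localization.LocalizationLocalization
import Mathlib.RingTheory.Localization.Finiteness
import Mathlib.RingTheory.Ideal.MinimalPrime.Noetherian

/-!
# Multicross data from a finite extension of rings
-/

set_option autoImplicit false
universe u

open IsLocalRing

namespace Groth.Agent.Models.H58.MCLoc

open Groth.Agent.Models.H73 NodeLocal2 NodeLocal4

section

variable {A₀ B₀ O A : Type u} [CommRing A₀] [CommRing B₀] [CommRing O] [CommRing A] [IsLocalRing O]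
  [Algebra A₀ B₀] [Algebra A₀ O] [Algebra B₀ A] [Algebra O A] [Algebra A₀ A]
  [IsScalarTower A₀ B₀ A] [IsScalarTower A₀ O A] (p : Ideal A₀) [p.IsPrime]
  [IsLocalization.AtPrime O p] [IsLocalization (Algebra.algebraMapSubmonoid B₀ p.primeCompl) A]

include p

theorem injective_of (hinj : Function.Injective (algebraMap A₀ B₀)) :
    Function.Injective (algebraMap O A) := by
  rw [injective_iff_map_eq_zero]
  intro x hx
  obtain ⟨⟨a, s⟩, hs⟩ := IsLocalization.surj (M := p.primeCompl) x
  have h1 : algebraMap B₀ A (algebraMap A₀ B₀ a) = 0 := by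
    rw [← IsScalarTower.algebraMap_apply A₀ B₀ A, IsScalarTower.algebraMap_apply A₀ O A, ← hs, map_mul, hx,
      zero_mul]
  obtain ⟨⟨m, hm⟩, h2⟩ := (IsLocalization.map_eq_zero_iff
    (Algebra.algebraMapSubmonoid B₀ p.primeCompl) A _).1 h1
  obtain ⟨s', hs', rfl⟩ := hm
  have h3 : s' * a = 0 := hinj (by rw [map_mul, map_zero]; exact h2)
  have h4 : algebraMap A₀ O a = 0 := (IsLocalization.map_eq_zero_iff p.primeCompl O a).2
    ⟨⟨s', hs'⟩, h3⟩
  rw [h4] at hs
  exact (IsLocalization.map_units O s).mul_left_eq_zero.1 hs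

/-- Elements of `A` as fractions. -/
theorem exists_frac (a : A) : ∃ (b : B₀) (s : A₀), s ∉ p ∧
    a * algebraMap A₀ A s = algebraMap B₀ A b := by
  obtain ⟨⟨b, ⟨m, hm⟩⟩, hs⟩ := IsLocalization.surj (M := Algebra.algebraMapSubmonoid B₀ p.primeCompl) a
  obtain ⟨s', hs', rfl⟩ := hm
  refine ⟨b, s', hs', ?_⟩
  rw [IsScalarTower.algebraMap_apply A₀ B₀ A]
  exact hs

theorem exists_inv {s : A₀} (hs : s ∉ p) : ∃ t : O, t * algebraMap A₀ O s = 1 :=
  (IsLocalization.map_units O (⟨s, hs⟩ : p.primeCompl)).exists_left_inv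

variable [Algebra.IsIntegral O A]

theorem comap_max (P : Ideal A) (hP : P.IsMaximal) : P.comap (algebraMap O A) = maximalIdeal O :=
  IsLocalRing.eq_maximalIdeal (Ideal.isMaximal_comap_of_isIntegral_of_isMaximal P)

theorem comap_comap_max (P : Ideal A) (hP : P.comap (algebraMap O A) = maximalIdeal O) :
    (P.comap (algebraMap B₀ A)).comap (algebraMap A₀ B₀) = p := by
  rw [Ideal.comap_comap, ← IsScalarTower.algebraMap_eq, IsScalarTower.algebraMap_eq A₀ O A,
    ← Ideal.comap_comap, hP]
  exact IsLocalization.AtPrime.comap_maximalIdeal O p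

/-- **Multicross data.** -/
theorem mc_of [Algebra.IsIntegral A₀ B₀] [p.IsMaximal] (hinj : Function.Injective (algebraMap A₀ B₀))
    (hres : ∀ q : Ideal B₀, q.IsPrime → q.comap (algebraMap A₀ B₀) = p → ∀ b : B₀, ∃ a : A₀,
      b - algebraMap A₀ B₀ a ∈ q)
    (hrad : ∀ b : B₀, (∀ q : Ideal B₀, q.IsPrime → q.comap (algebraMap A₀ B₀) = p → b ∈ q) →
      ∃ (a : A₀) (s : A₀), s ∉ p ∧ algebraMap A₀ B₀ s * b = algebraMap A₀ B₀ a)
    (hdvr : ∀ (q : Ideal B₀) (_ : q.IsPrime), q.comap (algebraMap A₀ B₀) = p →
      ∃ (_ : IsDomain (Localization.AtPrime q)), IsDiscreteValuationRing (Localization.AtPrime q)) :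
    MC O A where
  inj := injective_of p hinj
  comap P hP := comap_max p P hP
  res P hP a := by
    obtain ⟨b, s, hs, hb⟩ := exists_frac (B₀ := B₀) p a
    obtain ⟨t, ht⟩ := exists_inv (O := O) p hs
    have hq : (P.comap (algebraMap B₀ A)).IsPrime := Ideal.comap_isPrime _ _
    obtain ⟨a₀, ha₀⟩ := hres _ hq (comap_comap_max (O := O) p P (comap_max p P hP)) b
    refine ⟨t * algebraMap A₀ O a₀, ?_⟩
    have ht' : algebraMap O A t * algebraMap A₀ A s = 1 := by
      rw [IsScalarTower.algebraMap_apply A₀ O A, ← map_mul, ht, map_one]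
    have h1 : a - algebraMap O A (t * algebraMap A₀ O a₀) =
        algebraMap O A t * algebraMap B₀ A (b - algebraMap A₀ B₀ a₀) := by
      rw [map_sub, ← hb, map_mul, ← IsScalarTower.algebraMap_apply A₀ O A,
        ← IsScalarTower.algebraMap_apply A₀ B₀ A]
      linear_combination (-a) * ht'
    rw [h1]
    exact P.mul_mem_left _ ha₀
  rad a ha := by
    obtain ⟨b, s, hs, hb⟩ := exists_frac (B₀ := B₀) p a
    obtain ⟨t, ht⟩ := exists_inv (O := O) p hs
    have ht' : algebraMap O A t * algebraMap A₀ A s = 1 := by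
      rw [IsScalarTower.algebraMap_apply A₀ O A, ← map_mul, ht, map_one]
    obtain ⟨a₀, s₀, hs₀, h0⟩ := hrad b (by
      intro q hq hqp
      have hdisj : Disjoint (Algebra.algebraMapSubmonoid B₀ p.primeCompl : Set B₀) q := by
        rw [Set.disjoint_left]
        rintro _ ⟨x, hx, rfl⟩ hxq
        apply hx
        rw [← hqp]
        exact hxq
      have hP := IsLocalization.isPrime_of_isPrime_disjoint _ A q hq hdisj
      have hPc : Ideal.comap (algebraMap B₀ A) (Ideal.map (algebraMap B₀ A) q) = q :=
        IsLocalization.under_map_of_isPrime_disjoint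
          (Algebra.algebraMapSubmonoid B₀ p.primeCompl) A hq hdisj
      have hPO : (q.map (algebraMap B₀ A)).comap (algebraMap O A) = maximalIdeal O := by
        apply le_antisymm
        · exact IsLocalRing.le_maximalIdeal (Ideal.comap_isPrime _ _).ne_top
        · rw [← IsLocalization.AtPrime.map_eq_maximalIdeal p O, Ideal.map_le_iff_le_comap]
          intro x hx
          rw [Ideal.mem_comap, Ideal.mem_comap, ← IsScalarTower.algebraMap_apply A₀ O A,
            IsScalarTower.algebraMap_apply A₀ B₀ A]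
          apply Ideal.mem_map_of_mem
          rw [← hqp] at hx
          exact hx
      have hPm : (q.map (algebraMap B₀ A)).IsMaximal :=
        Ideal.isMaximal_of_isIntegral_of_isMaximal_comap _ (by rw [hPO]; infer_instance)
      have h1 : algebraMap B₀ A b ∈ q.map (algebraMap B₀ A) := by
        rw [← hb]
        exact Ideal.mul_mem_right _ _ (ha _ hPm)
      rw [← Ideal.mem_comap, hPc] at h1
      exact h1)
    obtain ⟨t₀, ht₀⟩ := exists_inv (O := O) p hs₀
    have ht₀' : algebraMap O A t₀ * algebraMap A₀ A s₀ = 1 := by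
      rw [IsScalarTower.algebraMap_apply A₀ O A, ← map_mul, ht₀, map_one]
    refine ⟨t * t₀ * algebraMap A₀ O a₀, ?_⟩
    have h2 := congrArg (algebraMap B₀ A) h0
    rw [map_mul, ← IsScalarTower.algebraMap_apply A₀ B₀ A, ← IsScalarTower.algebraMap_apply A₀ B₀ A,
      ← hb] at h2
    rw [map_mul, map_mul, ← IsScalarTower.algebraMap_apply A₀ O A, ← h2]
    calc algebraMap O A t * algebraMap O A t₀ * (algebraMap A₀ A s₀ * (a * algebraMap A₀ A s))
        = a * (algebraMap O A t * algebraMap A₀ A s) * (algebraMap O A t₀ * algebraMap A₀ A s₀) := by ring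
      _ = a := by rw [ht', ht₀', mul_one, mul_one]
  dvr P hP := by
    have hq : (P.comap (algebraMap B₀ A)).IsPrime := Ideal.comap_isPrime _ _
    obtain ⟨h1, h2⟩ := hdvr _ hq (comap_comap_max (O := O) p P (comap_max p P hP))
    have hloc : IsLocalization.AtPrime (Localization.AtPrime P) (P.comap (algebraMap B₀ A)) :=
      IsLocalization.isLocalization_isLocalization_atPrime_isLocalization
        (Algebra.algebraMapSubmonoid B₀ p.primeCompl) (Localization.AtPrime P) P
    let e : Localization.AtPrime (P.comap (algebraMap B₀ A)) ≃ₐ[B₀] Localization.AtPrime P :=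
      IsLocalization.algEquiv (P.comap (algebraMap B₀ A)).primeCompl _ _
    have hd : IsDomain (Localization.AtPrime P) := e.symm.toRingEquiv.toMulEquiv.isDomain _
    exact ⟨hd, _root_.IsDiscreteValuationRing.RingEquivClass.isDiscreteValuationRing e⟩

end

section

variable {O A : Type u} [CommRing O] [CommRing A] [IsLocalRing O] [IsNoetherianRing A] [Algebra O A]
  [Algebra.IsIntegral O A]

/-- In a multicross situation there is an element of the maximal ideal acting regularly on `A`. -/
theorem exists_regular (h : MC O A) : ∃ f ∈ maximalIdeal O, ∀ a : A, f • a = 0 → a = 0 := by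
  -- the kernels of `A → A_P` are minimal primes not lying over the maximal ideal
  have hmin : ∀ Q ∈ minimalPrimes A, Q.comap (algebraMap O A) ≠ maximalIdeal O := by
    intro Q hQ hQm
    have hQp : Q.IsPrime := hQ.1.1
    have hQmax : Q.IsMaximal := Ideal.isMaximal_of_isIntegral_of_isMaximal_comap Q
      (by rw [hQm]; infer_instance)
    obtain ⟨h1, h2⟩ := h.dvr Q hQmax
    -- then `A_Q` is a DVR, but `Q` is minimal
    have h3 : (⊥ : Ideal (Localization.AtPrime Q)).comap (algebraMap A (Localization.AtPrime Q)) = Q := by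
      have hle : (⊥ : Ideal (Localization.AtPrime Q)).comap (algebraMap A (Localization.AtPrime Q)) ≤ Q := by
        intro x hx
        rw [Ideal.mem_comap, Ideal.mem_bot, IsLocalization.map_eq_zero_iff Q.primeCompl] at hx
        obtain ⟨⟨m, hm⟩, hx⟩ := hx
        have : m * x ∈ Q := by rw [show m * x = 0 from hx]; exact Q.zero_mem
        exact (hQp.mem_or_mem this).resolve_left hm
      exact le_antisymm hle (hQ.2 ⟨Ideal.comap_isPrime _ _, bot_le⟩ hle)
    have h4 : maximalIdeal (Localization.AtPrime Q) = ⊥ := by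
      rw [← IsLocalization.AtPrime.map_eq_maximalIdeal Q (Localization.AtPrime Q), eq_bot_iff,
        Ideal.map_le_iff_le_comap, h3]
    exact IsDiscreteValuationRing.not_a_field _ h4
  have hfin : (minimalPrimes A).Finite := minimalPrimes.finite_of_isNoetherianRing A
  obtain ⟨f, hf, hfn⟩ : ∃ f ∈ maximalIdeal O, ∀ Q ∈ minimalPrimes A, algebraMap O A f ∉ Q := by
    by_contra! hcon
    have h1 : ((maximalIdeal O : Ideal O) : Set O) ⊆
        ⋃ Q ∈ (hfin.toFinset : Set (Ideal A)), (Q.comap (algebraMap O A) : Ideal O) := by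
      intro f hf
      obtain ⟨Q, hQ, hfQ⟩ := hcon f hf
      simp only [Set.mem_iUnion]
      exact ⟨Q, by simpa using hQ, hfQ⟩
    have h2 := (Ideal.subset_union_prime (R := O) (f := fun Q : Ideal A => Q.comap (algebraMap O A))
      (s := hfin.toFinset) ⊥ ⊥ (fun Q hQ _ _ => by
        have : Q.IsPrime := by
          have := (hfin.mem_toFinset.1 hQ)
          exact this.1.1
        exact Ideal.comap_isPrime _ _)).1 h1
    obtain ⟨Q, hQ, hle⟩ := h2
    have hQ' := hfin.mem_toFinset.1 hQ
    have hQp : Q.IsPrime := hQ'.1.1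
    exact hmin Q hQ' (le_antisymm (IsLocalRing.le_maximalIdeal (Ideal.comap_isPrime _ _).ne_top) hle)
  refine ⟨f, hf, fun a ha => ?_⟩
  -- `a` is zero in every `A_P`
  have h0 : ∀ P : Ideal A, ∀ hP : P.IsMaximal, algebraMap A (Localization.AtPrime P) a = 0 := by
    intro P hP
    obtain ⟨h1, h2⟩ := h.dvr P hP
    have h3 := congrArg (algebraMap A (Localization.AtPrime P)) ha
    rw [Algebra.smul_def, map_mul, map_zero] at h3
    refine (mul_eq_zero.1 h3).resolve_left (fun h4 => ?_)
    have h5 : ((⊥ : Ideal (Localization.AtPrime P)).comap (algebraMap A (Localization.AtPrime P))).IsPrime :=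
      Ideal.comap_isPrime _ _
    obtain ⟨Q, hQ, hQle⟩ := Ideal.exists_minimalPrimes_le (I := (⊥ : Ideal A))
      (J := (⊥ : Ideal (Localization.AtPrime P)).comap (algebraMap A (Localization.AtPrime P))) bot_le
    -- `Q ≤ ker`, and the kernel is contained in every prime below `P`
    have hker : (⊥ : Ideal (Localization.AtPrime P)).comap (algebraMap A (Localization.AtPrime P)) ≤ Q := by
      have hQP : Q ≤ P := by
        refine hQle.trans ?_
        intro x hx
        rw [Ideal.mem_comap, Ideal.mem_bot, IsLocalization.map_eq_zero_iff P.primeCompl] at hx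
        obtain ⟨⟨m, hm⟩, hx⟩ := hx
        have : m * x ∈ P := by rw [show m * x = 0 from hx]; exact P.zero_mem
        exact (hP.isPrime.mem_or_mem this).resolve_left hm
      intro x hx
      rw [Ideal.mem_comap, Ideal.mem_bot, IsLocalization.map_eq_zero_iff P.primeCompl] at hx
      obtain ⟨⟨m, hm⟩, hx⟩ := hx
      have hQp : Q.IsPrime := hQ.1.1
      have : m * x ∈ Q := by rw [show m * x = 0 from hx]; exact Q.zero_mem
      exact (hQp.mem_or_mem this).resolve_left (fun h => hm (hQP h))
    exact hfn Q hQ (hker h4)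
  by_contra hne
  -- the annihilator of `a` is contained in a maximal ideal
  let I : Ideal A := LinearMap.ker (LinearMap.toSpanSingleton A A a)
  have hI : I ≠ ⊤ := by
    intro hI
    apply hne
    have : (1 : A) ∈ I := by rw [hI]; trivial
    simpa [I] using this
  obtain ⟨P, hP, hIP⟩ := Ideal.exists_le_maximal I hI
  have h1 := h0 P hP
  rw [IsLocalization.map_eq_zero_iff P.primeCompl] at h1
  obtain ⟨⟨m, hm⟩, h2⟩ := h1
  exact hm (hIP (by simpa [I] using h2))

end

end Groth.Agent.Models.H58.MCLoc
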