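import Groth.Agent.Models.H58.MCLoc

/-!
# Gorenstein points dominated by a seminormal-type condition are regular or nodes: algebraic form
-/

set_option autoImplicit false
universe u

open IsLocalRing

namespace Groth.Agent.Models.H58.NodalGlueAlg

open Groth.Agent.Models.H73 NodeLocal2 NodeLocal4

theorem regular_or_nodeLike {A₀ B₀ O : Type u} [CommRing A₀] [CommRing B₀] [CommRing O] [IsLocalRing O]
    [IsNoetherianRing A₀] [IsNoetherianRing O] [Algebra A₀ B₀] [Module.Finite A₀ B₀] [Algebra A₀ O]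
    (p : Ideal A₀) [hp : p.IsMaximal] [IsLocalization.AtPrime O p]
    (hinj : Function.Injective (algebraMap A₀ B₀))
    (hres : ∀ q : Ideal B₀, q.IsPrime → q.comap (algebraMap A₀ B₀) = p → ∀ b : B₀, ∃ a : A₀,
      b - algebraMap A₀ B₀ a ∈ q)
    (hrad : ∀ b : B₀, (∀ q : Ideal B₀, q.IsPrime → q.comap (algebraMap A₀ B₀) = p → b ∈ q) →
      ∃ (a : A₀) (s : A₀), s ∉ p ∧ algebraMap A₀ B₀ s * b = algebraMap A₀ B₀ a)
    (hdvr : ∀ (q : Ideal B₀) (_ : q.IsPrime), q.comap (algebraMap A₀ B₀) = p →
      ∃ (_ : IsDomain (Localization.AtPrime q)), IsDiscreteValuationRing (Localization.AtPrime q))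
    (hG : LocCoh.IsGorensteinLocalRing O) (hdim : ringKrullDim O ≤ 1) :
    IsRegularLocalRing O ∨ IsNodeLike O := by
  let A := Localization (Algebra.algebraMapSubmonoid B₀ p.primeCompl)
  letI : Algebra O A := localizationAlgebra p.primeCompl B₀
  haveI : IsScalarTower A₀ O A := isScalarTower_localizationAlgebra p.primeCompl B₀
  haveI : Module.Finite O A := Module.Finite.of_isLocalization A₀ B₀ p.primeCompl
  have hB : IsNoetherianRing B₀ := IsNoetherianRing.of_finite A₀ B₀
  have hA : IsNoetherianRing A := IsLocalization.isNoetherianRing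
    (Algebra.algebraMapSubmonoid B₀ p.primeCompl) A hB
  have h := MCLoc.mc_of (O := O) (A := A) p hinj hres hrad hdvr
  obtain ⟨f, hf, hfA⟩ := MCLoc.exists_regular h
  exact node_or_regular h hG hdim hf hfA

end Groth.Agent.Models.H58.NodalGlueAlg
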