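import Mathlib.AlgebraicGeometry.Morphisms.SchemeTheoreticallyDominant
import Mathlib.AlgebraicGeometry.ResidueField
import Groth.Agent.Models.H58.NodalGlueAlg
import Groth.Agent.VarietyA.SmoothReg
import Groth.Agent.CalgA.RegBasic
import Groth.Agent.EtpbcA.CharPDim
import Groth.Agent.CurvesB.DimPts
import Groth.Agent.Sga67.BlowReg
import Groth.Agent.Dix.ClosedAlg

/-!
# Gorenstein points dominated by a seminormal-type condition are regular or nodes: geometric form
-/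

set_option autoImplicit false
universe u
open CategoryTheory CategoryTheory.Limits AlgebraicGeometry TopologicalSpace IsLocalRing

namespace Groth.Agent.Models.H58.NodalGlueGeo

open Groth.Agent.Models.H73 NodeLocal2 NodeLocal4

section Topology

/-- A closed subset of a Noetherian space all points of which are closed is finite. -/
theorem finite_of_isClosed_singleton {T : Type*} [TopologicalSpace T] [NoetherianSpace T] [QuasiSober T]
    {S : Set T} (hS : IsClosed S) (h : ∀ s ∈ S, IsClosed ({s} : Set T)) : S.Finite := by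
  obtain ⟨F, hF, hFc, hFi, hSF⟩ := NoetherianSpace.exists_finite_set_isClosed_irreducible hS
  have h1 : ∀ t ∈ F, t.Finite := by
    intro t ht
    obtain ⟨g, hg⟩ := QuasiSober.sober (hFi t ht) (hFc t ht)
    have hgS : g ∈ S := by rw [hSF]; exact ⟨t, ht, hg.mem⟩
    have h2 : t = {g} := by rw [← hg.def, (h g hgS).closure_eq]
    rw [h2]
    exact Set.finite_singleton g
  rw [hSF]
  exact hF.sUnion h1

theorem one_le_ringKrullDim_stalk {X : Scheme.{u}} [NoetherianSpace X] (U : X.Opens)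
    (hU : Dense (U : Set X)) (z : X) (hz : z ∉ U) : 1 ≤ ringKrullDim (X.presheaf.stalk z) := by
  obtain ⟨x, hxU, hxz⟩ := EtpbcA.CharPDim.exists_specializes (U : Set X) U.2 hU z
  have hlt : z < x := lt_of_le_not_ge hxz (fun h : z ⤳ x => hz ((hxz.antisymm h).eq ▸ hxU))
  rw [ringKrullDim_stalk_eq_coheight]
  have h1 := Order.coheight_add_one_le hlt
  have h2 : (1 : ℕ∞) ≤ Order.coheight z := le_trans (by simp) h1
  exact_mod_cast h2

theorem isClosed_of_notMem {X : Scheme.{u}} [NoetherianSpace X] (hdim : topologicalKrullDim X ≤ 1)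
    (U : X.Opens) (hU : Dense (U : Set X)) (z : X) (hz : z ∉ U) : IsClosed ({z} : Set X) := by
  by_contra hcon
  have h1 := CurvesB.DimPts.ringKrullDim_stalk_eq_zero_of_not_isClosed hdim z hcon
  have h2 := one_le_ringKrullDim_stalk U hU z hz
  rw [h1] at h2
  exact absurd h2 (by decide)

end Topology

/-- Any element of an algebra integral over a finite type algebra over an algebraically closed field is constant
modulo a prime over a maximal ideal. -/
theorem exists_const_mod {k : Type u} [Field k] [IsAlgClosed k] {A₀ B₀ : Type u} [CommRing A₀] [CommRing B₀]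
    [Algebra k A₀] [Algebra.FiniteType k A₀]
    [Algebra A₀ B₀] [Algebra.IsIntegral A₀ B₀] (p : Ideal A₀) [p.IsMaximal] (q : Ideal B₀) [q.IsPrime]
    (hq : q.comap (algebraMap A₀ B₀) = p) (b : B₀) : ∃ a : A₀, b - algebraMap A₀ B₀ a ∈ q := by
  have : q.LiesOver p := ⟨hq.symm⟩
  let _ : Field (A₀ ⧸ p) := Ideal.Quotient.field p
  have : Algebra.FiniteType k (A₀ ⧸ p) := inferInstance
  have : Module.Finite k (A₀ ⧸ p) := finite_of_finite_type_of_isJacobsonRing k (A₀ ⧸ p)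
  let _ : Algebra k (B₀ ⧸ q) := ((algebraMap (A₀ ⧸ p) (B₀ ⧸ q)).comp (algebraMap k (A₀ ⧸ p))).toAlgebra
  have : IsScalarTower k (A₀ ⧸ p) (B₀ ⧸ q) := .of_algebraMap_eq (fun _ => rfl)
  have : Algebra.IsIntegral (A₀ ⧸ p) (B₀ ⧸ q) := inferInstance
  have : Algebra.IsIntegral k (B₀ ⧸ q) := Algebra.IsIntegral.trans (A₀ ⧸ p)
  obtain ⟨c, hc⟩ := (IsAlgClosed.algebraMap_bijective_of_isIntegral (k := k) (K := B₀ ⧸ q)).2
    (Ideal.Quotient.mk q b)
  refine ⟨algebraMap k A₀ c, ?_⟩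
  rw [← Ideal.Quotient.eq_zero_iff_mem, map_sub, ← hc, sub_eq_zero]
  rfl

variable {k : Type u} [Field k] {Z Z' : Scheme.{u}} (f : Z ⟶ Spec (CommRingCat.of k))
  (ν : Z' ⟶ Z)

theorem isNoetherian [LocallyOfFiniteType f] [QuasiCompact f] : IsNoetherian Z :=
  { __ := LocallyOfFiniteType.isLocallyNoetherian f
    __ := QuasiCompact.compactSpace_of_compactSpace f }

theorem isDominant (U : Z.Opens) (hU : Dense (U : Set Z)) [IsIso (ν ∣_ U)] : IsDominant ν := by
  constructor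
  have h1 : (U : Set Z) ⊆ Set.range ν := by
    intro x hx
    obtain ⟨y, hy⟩ := (ν ∣_ U).surjective ⟨x, hx⟩
    refine ⟨(ν ⁻¹ᵁ U).ι y, ?_⟩
    rw [← Scheme.Hom.comp_apply, ← morphismRestrict_ι, Scheme.Hom.comp_apply, hy]
    rfl
  exact hU.mono h1

/-- The sections over an affine open of a scheme locally of finite type over `k`. -/
theorem finiteType_section [LocallyOfFiniteType f] (V : Z.Opens) (hV : IsAffineOpen V) :
    ((f.appLE ⊤ V le_top).hom.comp (Scheme.ΓSpecIso (CommRingCat.of k)).inv.hom).FiniteType := by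
  refine RingHom.FiniteType.comp (f.finiteType_appLE (isAffineOpen_top _) hV le_top) ?_
  exact RingHom.FiniteType.of_surjective _
    (ConcreteCategory.bijective_of_isIso (Scheme.ΓSpecIso (CommRingCat.of k)).inv).2

/-- The local rings at the points of `Z'` over `Z ∖ U` are discrete valuation rings. -/
theorem dvr_stalk [IsAlgClosed k] [LocallyOfFiniteType f] [QuasiCompact f] [IsFinite ν] [Smooth (ν ≫ f)]
    (hdim : topologicalKrullDim Z ≤ 1)
    (U : Z.Opens) (hU' : Dense ((ν ⁻¹ᵁ U : Z'.Opens) : Set Z')) (z' : Z') (hz' : z' ∉ ν ⁻¹ᵁ U) :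
    ∃ (_ : IsDomain (Z'.presheaf.stalk z')), IsDiscreteValuationRing (Z'.presheaf.stalk z') := by
  have hN' : IsNoetherian Z' := isNoetherian (ν ≫ f)
  have h1 : IsRegularLocalRing (Z'.presheaf.stalk z') :=
    (VarietyA.SmoothReg.mem_smoothLocus_iff_of_perfectField (ν ≫ f) z').1
      (by rw [(ν ≫ f).smoothLocus_eq_top]; trivial)
  have hd : IsDomain (Z'.presheaf.stalk z') := CalgA.RegBasic.isDomain _
  have h2 := one_le_ringKrullDim_stalk (ν ⁻¹ᵁ U) hU' z' hz'
  have h3 : ringKrullDim (Z'.presheaf.stalk z') ≤ 1 :=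
    (CurvesB.DimPts.ringKrullDim_stalk_le z').trans
      ((EtpbcA.CharPDim.dim_le_of_isIntegralHom ν).trans hdim)
  exact ⟨inferInstance,
    VarietyA.SmoothReg.isDiscreteValuationRing_of_isRegularLocalRing _ (le_antisymm h3 h2)⟩

/-- The glue: geometric form. -/
theorem regular_or_nodeLike [IsAlgClosed k] [LocallyOfFiniteType f] [QuasiCompact f] [IsReduced Z]
    [IsFinite ν] [Smooth (ν ≫ f)]
    (hdim : topologicalKrullDim Z ≤ 1) (U : Z.Opens) (hU : Dense (U : Set Z)) [IsIso (ν ∣_ U)]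
    (hU' : Dense ((ν ⁻¹ᵁ U : Z'.Opens) : Set Z'))
    (hsec : ∀ V : Z.Opens, IsAffineOpen V → ∀ σ : Γ(Z', ν ⁻¹ᵁ V),
      (∀ (x : Z') (hx : x ∈ ν ⁻¹ᵁ V), ν x ∉ U → Z'.evaluation (ν ⁻¹ᵁ V) x hx σ = 0) →
        ∃ τ : Γ(Z, V), ν.app V τ = σ)
    (z : Z) (hz : z ∉ U) (hG : LocCoh.IsGorensteinLocalRing (Z.presheaf.stalk z)) :
    IsRegularLocalRing (Z.presheaf.stalk z) ∨ IsNodeLike (Z.presheaf.stalk z) := by
  have hN : IsNoetherian Z := isNoetherian f
  have hN' : IsNoetherian Z' := isNoetherian (ν ≫ f)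
  have hzc := isClosed_of_notMem hdim U hU z hz
  have hfin : ((U : Set Z)ᶜ).Finite := finite_of_isClosed_singleton U.2.isClosed_compl
    (fun s hs => isClosed_of_notMem hdim U hU s hs)
  have hclosed : IsClosed ((U : Set Z)ᶜ \ {z}) := by
    rw [← Set.biUnion_of_singleton ((U : Set Z)ᶜ \ {z})]
    exact (hfin.subset Set.sdiff_subset).isClosed_biUnion
      (fun s hs => isClosed_of_notMem hdim U hU s hs.1)
  obtain ⟨V, hV, hzV, hVsub⟩ := exists_isAffineOpen_mem_and_subset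
    (U := (⟨((U : Set Z)ᶜ \ {z})ᶜ, hclosed.isOpen_compl⟩ : Z.Opens)) (x := z) (by simp)
  have hVU : ∀ x ∈ V, x ∉ U → x = z := by
    intro x hxV hxU
    by_contra hne
    exact hVsub hxV ⟨hxU, hne⟩
  have hW : IsAffineOpen (ν ⁻¹ᵁ V) := hV.preimage ν
  have hdom := isDominant ν U hU
  have hsd := IsSchemeTheoreticallyDominant.of_isDominant ν
  let _ : Algebra Γ(Z, V) Γ(Z', ν ⁻¹ᵁ V) := (ν.app V).hom.toAlgebra
  let _ : Algebra Γ(Z, V) (Z.presheaf.stalk z) := Z.presheaf.algebra_section_stalk ⟨z, hzV⟩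
  let _ : Algebra k Γ(Z, V) :=
    ((f.appLE ⊤ V le_top).hom.comp (Scheme.ΓSpecIso (CommRingCat.of k)).inv.hom).toAlgebra
  have _ : Algebra.FiniteType k Γ(Z, V) := finiteType_section f V hV
  have _ : Module.Finite Γ(Z, V) Γ(Z', ν ⁻¹ᵁ V) := ν.finite_app V hV
  have hloc : IsLocalization.AtPrime (Z.presheaf.stalk z) (hV.primeIdealOf ⟨z, hzV⟩).asIdeal :=
    hV.isLocalization_stalk ⟨z, hzV⟩
  have hpmax := Dix.ClosedAlg.isMaximal_primeIdealOf z hzc V hV hzV
  have hNA : IsNoetherianRing Γ(Z, V) := IsLocallyNoetherian.component_noetherian ⟨V, hV⟩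
  -- the primes over `p`
  have hq : ∀ q : Ideal Γ(Z', ν ⁻¹ᵁ V), ∀ hq : q.IsPrime,
      q.comap (algebraMap Γ(Z, V) Γ(Z', ν ⁻¹ᵁ V)) = (hV.primeIdealOf ⟨z, hzV⟩).asIdeal →
      ∃ (x : Z') (hx : x ∈ ν ⁻¹ᵁ V), (hW.primeIdealOf ⟨x, hx⟩).asIdeal = q ∧ ν x = z := by
    intro q hq hqp
    obtain ⟨⟨x, hx⟩, hxq⟩ := Sga67.BlowReg.exists_primeIdealOf_eq hW ⟨q, hq⟩
    have hxq' : (hW.primeIdealOf ⟨x, hx⟩).asIdeal = q := congrArg PrimeSpectrum.asIdeal hxq
    refine ⟨x, hx, hxq', ?_⟩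
    have h1 := IsAffineOpen.comap_primeIdealOf_appLE V hV (ν ⁻¹ᵁ V) hW le_rfl hx
    rw [Scheme.Hom.appLE_eq_app] at h1
    have h2 := congr_arg PrimeSpectrum.asIdeal h1
    have h3 : (hV.primeIdealOf ⟨ν x, hx⟩).asIdeal = (hV.primeIdealOf ⟨z, hzV⟩).asIdeal := by
      rw [← hqp, ← hxq']
      exact h2.symm
    have h4 := PrimeSpectrum.ext h3
    have h5 := congrArg hV.fromSpec h4
    rwa [hV.fromSpec_primeIdealOf, hV.fromSpec_primeIdealOf] at h5
  refine NodalGlueAlg.regular_or_nodeLike (A₀ := Γ(Z, V)) (B₀ := Γ(Z', ν ⁻¹ᵁ V))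
    (hV.primeIdealOf ⟨z, hzV⟩).asIdeal (ν.app_injective V) ?_ ?_ ?_ hG
    ((CurvesB.DimPts.ringKrullDim_stalk_le z).trans hdim)
  · intro q hqP hqp b
    exact exists_const_mod (k := k) (hV.primeIdealOf ⟨z, hzV⟩).asIdeal q hqp b
  · intro b hb
    obtain ⟨τ, hτ⟩ := hsec V hV b (by
      intro x hx hxU
      have hxz := hVU _ hx hxU
      rw [← Scheme.germ_residue]
      change residue _ (Z'.presheaf.germ (ν ⁻¹ᵁ V) x hx b) = 0
      rw [residue_eq_zero_iff, Dix.ClosedAlg.germ_mem_maximalIdeal_iff x (ν ⁻¹ᵁ V) hW hx]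
      apply hb _ inferInstance
      have h1 := IsAffineOpen.comap_primeIdealOf_appLE V hV (ν ⁻¹ᵁ V) hW le_rfl hx
      rw [Scheme.Hom.appLE_eq_app] at h1
      have h2 := congr_arg PrimeSpectrum.asIdeal h1
      refine h2.trans ?_
      subst hxz
      rfl)
    refine ⟨τ, 1, (Ideal.ne_top_iff_one _).1 hpmax.ne_top, ?_⟩
    rw [map_one, one_mul]
    exact hτ.symm
  · intro q hqP hqp
    obtain ⟨x, hx, rfl, hxz⟩ := hq q hqP hqp
    obtain ⟨h1, h2⟩ := dvr_stalk f ν hdim U hU' x (by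
      intro h
      apply hz
      rw [← hxz]
      exact h)
    have e := Sga67.BlowReg.stalkEquiv hW hx
    have hd := e.toMulEquiv.isDomain (B := Z'.presheaf.stalk x)
    exact ⟨hd, _root_.IsDiscreteValuationRing.RingEquivClass.isDiscreteValuationRing e.symm⟩

end Groth.Agent.Models.H58.NodalGlueGeo
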