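import Groth.Prelude.Def_CurvBase
import Groth.Agent.Models.H58.NodalGlueGeo
import Groth.Agent.VarietyA.SmoothLocusSch
import Groth.Agent.CurvesB.NodeCriterion
import Groth.Agent.CurvesC.NodalComplete

/-!
# From the numerical equality case to at-worst-nodal singularities

`atWorstNodal`: let `Z` be a reduced curve over an algebraically closed field, `ν : Z' ⟶ Z` finite, an isomorphism
over the dense open `U`, `Z'` smooth, such that every function on `ν⁻¹V` vanishing over `V ∖ U` comes from `V`, and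
all local rings of `Z` are Gorenstein.  Then `Z` has at worst nodes.
-/

set_option autoImplicit false
universe u
open CategoryTheory CategoryTheory.Limits AlgebraicGeometry TopologicalSpace IsLocalRing

namespace Groth.Agent.Models.H58.NodalGlue

open Groth.Agent.Models.H73 NodeLocal2 NodeLocal4

variable {k : Type u} [Field k] [IsAlgClosed k] {Z Z' : Scheme.{u}} (f : Z ⟶ Spec (CommRingCat.of k))
  (ν : Z' ⟶ Z)

theorem isNode_of_isNodeLike [LocallyOfFiniteType f] [IsReduced Z] (z : Z)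
    (hz : IsClosed ({z} : Set Z)) (h : IsNodeLike (Z.presheaf.stalk z)) :
    @Curv2.IsNode k _ Z ⟨f⟩ z := by
  let _ : Z.Over (Spec (CommRingCat.of k)) := ⟨f⟩
  have hN : IsLocallyNoetherian Z := LocallyOfFiniteType.isLocallyNoetherian f
  have hfin := (CurvesB.Node.isClosed_iff_finite f z).1 hz
  have hsep1 : @Algebra.IsSeparable k (Z.residueField z) _ _ (Curv2.resAlgebra k Z z) := by
    let _ := Curv2.resAlgebra k Z z
    have _ : Module.Finite k (Z.residueField z) := hfin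
    infer_instance
  let _ := Curv2.stalkAlgebra k Z z
  have hsep2 : Algebra.IsSeparable k (ResidueField (Z.presheaf.stalk z)) := hsep1
  obtain ⟨hfr, x, y, a, b, c, hx, hy, hxy, hd, hq⟩ := h
  obtain ⟨a', b', c', hd', e, -⟩ := CurvesC.NodalComplete.forward k (Z.presheaf.stalk z) hsep2 inferInstance
    hfr x y a b c hx hy hxy hd hq
  have hlft : LocallyOfFiniteType (Z ↘ Spec (CommRingCat.of k)) := inferInstanceAs (LocallyOfFiniteType f)
  rw [CurvesB.Node.isNode_iff]
  exact ⟨⟨hfin, hsep1⟩, CurvesB.Node.nodeLike_of_quad_equiv hd' e⟩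

theorem exists_smooth_nhd [LocallyOfFiniteType f] [IsReduced Z] (z : Z)
    (h : IsRegularLocalRing (Z.presheaf.stalk z)) :
    ∃ V : Z.Opens, z ∈ V ∧ Smooth (V.ι ≫ f) := by
  have hN : IsLocallyNoetherian (Spec (CommRingCat.of k)) := inferInstance
  have hfp : LocallyOfFinitePresentation f := inferInstance
  exact ⟨f.smoothLocus, (VarietyA.SmoothReg.mem_smoothLocus_iff_of_perfectField f z).2 h,
    VarietyA.SmoothLocusSch.smooth_smoothLocus_ι f⟩

omit [IsAlgClosed k] in
theorem smooth_of_mem [Smooth (ν ≫ f)] (U : Z.Opens) [IsIso (ν ∣_ U)] : Smooth (U.ι ≫ f) := by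
  have h1 : U.ι ≫ f = inv (ν ∣_ U) ≫ (ν ⁻¹ᵁ U).ι ≫ ν ≫ f := by
    rw [← Category.assoc _ ν f, ← morphismRestrict_ι, Category.assoc, IsIso.inv_hom_id_assoc]
  rw [h1]
  infer_instance

/-- **The glue.** -/
theorem atWorstNodal [LocallyOfFiniteType f] [QuasiCompact f] [IsReduced Z]
    [IsFinite ν] [Smooth (ν ≫ f)]
    (hdim : topologicalKrullDim Z ≤ 1) (U : Z.Opens) (hU : Dense (U : Set Z)) [IsIso (ν ∣_ U)]
    (hU' : Dense ((ν ⁻¹ᵁ U : Z'.Opens) : Set Z'))
    (hsec : ∀ V : Z.Opens, IsAffineOpen V → ∀ σ : Γ(Z', ν ⁻¹ᵁ V),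
      (∀ (x : Z') (hx : x ∈ ν ⁻¹ᵁ V), ν x ∉ U → Z'.evaluation (ν ⁻¹ᵁ V) x hx σ = 0) →
        ∃ τ : Γ(Z, V), ν.app V τ = σ)
    (hG : ∀ z : Z, IsClosed ({z} : Set Z) → LocCoh.IsGorensteinLocalRing (Z.presheaf.stalk z)) :
    @Curv2.AtWorstNodal k _ Z ⟨f⟩ := by
  intro z hz
  by_cases hzU : z ∈ U
  · exact Or.inl ⟨U, hzU, smooth_of_mem f ν U⟩
  rcases NodalGlueGeo.regular_or_nodeLike f ν hdim U hU hU' hsec z hzU (hG z hz) with h | h
  · exact Or.inl (exists_smooth_nhd f z h)
  · exact Or.inr (isNode_of_isNodeLike f z hz h)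

end Groth.Agent.Models.H58.NodalGlue
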