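import Groth.Prelude.Def_Models
import Groth.Prelude.Def_ModelsSS
import Groth.Agent.CohqB.ProjBC
import Groth.Agent.CohqA.ProjDim
import Groth.Agent.Sga5.ProjSmooth
import Groth.Agent.Ega3B.ProjProper

/-!
# The projective line has semistable reduction
-/

set_option autoImplicit false
universe u
open CategoryTheory CategoryTheory.Limits AlgebraicGeometry

namespace Groth.Agent.Models.H58.P1Model

open CohB1 Groth.Agent.CohqB.ProjBC

/-- Semistable reduction only depends on the isomorphism class of the curve. -/
theorem hasSemistableReduction_of_iso (R : Type u) [CommRing R] [IsDomain R] [IsDiscreteValuationRing R]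
    {C C' : Scheme.{u}} (f : C ⟶ Spec (CommRingCat.of (FractionRing R)))
    (f' : C' ⟶ Spec (CommRingCat.of (FractionRing R))) (e : C ≅ C') (he : e.hom ≫ f' = f)
    (h : Models.HasSemistableReduction R C' f') : Models.HasSemistableReduction R C f := by
  obtain ⟨X, p, ⟨h1, h2, h3, g, hg⟩, h4, h5⟩ := h
  refine ⟨X, p, ⟨h1, h2, h3, e.hom ≫ g, ?_⟩, h4, h5⟩
  exact IsPullback.of_iso hg e.symm (Iso.refl _) (Iso.refl _) (Iso.refl _) (by simp) (by simp [← he])
    (by simp) (by simp)

theorem topologicalKrullDim_P1 (k : Type u) [Field k] : topologicalKrullDim (ProjSpace 1 k) = 1 := by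
  refine le_antisymm (CohqA.ProjDim.topologicalKrullDim_le k 1) ?_
  have h1 := (Sga5.ProjSmooth.chart 1 k 0).isOpenEmbedding.isInducing.topologicalKrullDim_le
  refine le_trans ?_ h1
  have h2 : topologicalKrullDim (Spec (CommRingCat.of (MvPolynomial (Fin 1) k))) =
      ringKrullDim (MvPolynomial (Fin 1) k) :=
    PrimeSpectrum.topologicalKrullDim_eq_ringKrullDim _
  rw [h2, MvPolynomial.ringKrullDim_of_isNoetherianRing, ringKrullDim_eq_zero_of_field]
  simp

/-- A smooth morphism all of whose fibres are irreducible of dimension one is a nodal family. -/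
theorem isNodalFamily_of_smooth {X S : Scheme.{u}} (p : X ⟶ S) [Smooth p]
    (h : ∀ s : S, IrreducibleSpace (p.fiber s) ∧ topologicalKrullDim (p.fiber s) = 1) :
    Curv2.IsNodalFamily p := by
  refine ⟨inferInstance, inferInstance, fun s => ⟨fun Z hZ => ?_, ?_⟩⟩
  · have h1 := (h s).1
    rw [irreducibleComponents_eq_singleton] at hZ
    rw [Set.mem_singleton_iff.1 hZ, (Homeomorph.Set.univ (p.fiber s)).isHomeomorph.topologicalKrullDim_eq]
    exact (h s).2
  · intro x hx
    refine Or.inl ⟨⊤, trivial, ?_⟩
    have : Smooth (p.fiberToSpecResidueField s) :=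
      MorphismProperty.pullback_snd (P := @Smooth) _ _ inferInstance
    change Smooth ((⊤ : (p.fiber s).Opens).ι ≫ p.fiberToSpecResidueField s)
    infer_instance

theorem isNodalFamily_P1 (R : Type u) [CommRing R] : Curv2.IsNodalFamily (ProjSpace.toSpec 1 R) := by
  have hs : Smooth (ProjSpace.toSpec 1 R) := SmoothOfRelativeDimension.smooth 1 _
  refine isNodalFamily_of_smooth _ (fun s => ?_)
  let S : Scheme.{u} := Spec (CommRingCat.of R)
  let κ : Type u := S.residueField s
  obtain ⟨φ, hφ⟩ : ∃ φ : R →+* κ, Spec.map (CommRingCat.ofHom φ) = S.fromSpecResidueField s :=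
    ⟨(Spec.preimage (S.fromSpecResidueField s)).hom, Spec.map_preimage _⟩
  have h1 := isPullback_pmap φ 1
  rw [hφ] at h1
  let e : (ProjSpace.toSpec 1 R).fiber s ≅ ProjSpace 1 κ :=
    (IsPullback.of_hasPullback (ProjSpace.toSpec 1 R) (S.fromSpecResidueField s)).isoIsPullback _ _ h1
  have hint : IsIntegral (ProjSpace 1 κ) := inferInstance
  constructor
  · have hne : Nonempty ((ProjSpace.toSpec 1 R).fiber s) :=
      ⟨e.inv (Classical.arbitrary (ProjSpace 1 κ))⟩
    have : IsIntegral ((ProjSpace.toSpec 1 R).fiber s) := isIntegral_of_isOpenImmersion e.hom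
    infer_instance
  · rw [e.hom.homeomorph.isHomeomorph.topologicalKrullDim_eq, topologicalKrullDim_P1]

/-- The projective line has semistable reduction. -/
theorem hasSemistableReduction_P1 (R : Type u) [CommRing R] [IsDomain R] [IsDiscreteValuationRing R] :
    Models.HasSemistableReduction R (ProjSpace 1 (FractionRing R)) (ProjSpace.toSpec 1 (FractionRing R)) := by
  have hp : IsProper (ProjSpace.toSpec 1 R) := Ega3B.ProjProper.isProper_toSpec 1 R
  have hs : Smooth (ProjSpace.toSpec 1 R) := SmoothOfRelativeDimension.smooth 1 _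
  exact ⟨ProjSpace 1 R, ProjSpace.toSpec 1 R, ⟨inferInstance, inferInstance, inferInstance,
    pmap (algebraMap R (FractionRing R)) 1, isPullback_pmap (algebraMap R (FractionRing R)) 1⟩, hp,
    isNodalFamily_P1 R⟩

/-- A curve which is isomorphic to the projective line has semistable reduction. -/
theorem hasSemistableReduction_of_iso_P1 (R : Type u) [CommRing R] [IsDomain R] [IsDiscreteValuationRing R]
    {C : Scheme.{u}} (f : C ⟶ Spec (CommRingCat.of (FractionRing R)))
    (e : C ≅ ProjSpace 1 (FractionRing R)) (he : e.hom ≫ ProjSpace.toSpec 1 (FractionRing R) = f) :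
    Models.HasSemistableReduction R C f :=
  hasSemistableReduction_of_iso R f _ e he (hasSemistableReduction_P1 R)

end Groth.Agent.Models.H58.P1Model
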